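import Cfsg.Agent.H81.MacW.Fourth

/-!
MacWilliams: a 2-group of normal rank at most two has sectional rank at most four.
-/

set_option autoImplicit false
set_option linter.unusedSectionVars false

namespace Cfsg.Agent.H81.MacW

open Subgroup

namespace Ctx.Frame

variable {P : Type*} [Group P] [Finite P] {c : Ctx P} (f : Frame c)

theorem card_H_map {H : Subgroup P} (hH : H ≤ c.R) :
    Nat.card (H.map c.φ) ≤ Nat.card (f.muImage H) :=
  c.card_map_le f.mu (f.muImage H : Set Mt) (fun r hr => ⟨r, ⟨hr, hH hr⟩, rfl⟩)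
    (fun r hr s hs => f.mu_sep (hH hr) (hH hs))

include f in
theorem inside {H : Subgroup P} (hH : H ≤ c.R) :
    Nat.card H ≤ 2 ^ 4 * Nat.card (sqSub H) := by
  have hD := c.card_D (G := sqSub H ⊓ c.C) inf_le_right (c.D_sq H)
  have hmap := f.card_H_map hH
  have hpos : 1 ≤ Nat.card ((sqSub H).map c.φ) := Nat.card_pos
  have hdvd : Nat.card (f.muImage H) ∣ 16 := by
    have := (f.muImage H).card_addSubgroup_dvd_card
    rwa [card_Mt] at this
  have hmap' : ∀ n, Nat.card (f.muImage H) ≤ n →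
      Nat.card (H.map c.φ) ≤ n * Nat.card ((sqSub H).map c.φ) := fun n hn => by
    calc Nat.card (H.map c.φ) ≤ n * 1 := by omega
      _ ≤ _ := Nat.mul_le_mul_left _ hpos
  by_cases h4 : Nat.card (f.muImage H) ≤ 4
  · exact c.bound H 4 4 le_rfl hD (hmap' 4 h4)
  have h816 : Nat.card (f.muImage H) = 8 ∨ Nat.card (f.muImage H) = 16 := by
    have h16 := Nat.le_of_dvd (by norm_num) hdvd
    generalize Nat.card (f.muImage H) = n at *
    interval_cases n <;> simp_all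
  have h8 : 8 ≤ Nat.card (f.muImage H) := by omega
  -- a square which is no square in `C`
  have hstrict : ∀ r ∈ H ⊓ c.R, (∀ δ ∈ c.C, δ ^ 2 ≠ r ^ 2) →
      Nat.card (H ⊓ c.C : Subgroup P) ≤ 2 * Nat.card (sqSub H ⊓ c.C : Subgroup P) := fun r hr hns =>
    c.card_D_strict inf_le_right (c.D_sq H) (z := r ^ 2)
      ⟨sq_mem_sqSub hr.1, c.R_sq hr.2⟩ hns
  obtain ⟨gN, gE, gT, gA, gA', iA, iA', htc, hN0, hE0, hT0, hA0, hA'0⟩ := goods
  -- no invertible good matrix can be equivariant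
  have noInv : (∀ p : P, p ∈ c.R) → ∀ r ∈ c.R, Good (f.mu r) → Inj (f.mu r) → f.mu r ≠ 0 → False := by
    intro hR r hr hg hi h0
    obtain ⟨δ, hδ, hδ2⟩ := f.V_square (c.fixed_sq hr (f.inj_inj hr hi))
    exact f.no_root hr hg h0 (Or.inr hR) δ hδ hδ2
  by_cases hR : ∀ p : P, p ∈ c.R
  · rcases h816 with h | h
    · refine c.bound H 2 8 le_rfl ?_ (hmap' 8 h.le)
      rcases exists_good _ h8 with ⟨r, hr, hm⟩ | ⟨r, hr, hm⟩ | ⟨r, hr, hm⟩ | ⟨r, hr, hm⟩ | ⟨r, hr, hm⟩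
      · exact hstrict r hr (f.no_root hr.2 (hm ▸ gN) (hm ▸ hN0) (Or.inr hR))
      · exact hstrict r hr (f.no_root hr.2 (hm ▸ gE) (hm ▸ hE0) (Or.inr hR))
      · exact hstrict r hr (f.no_root hr.2 (hm ▸ gT) (hm ▸ hT0) (Or.inr hR))
      · exact (noInv hR r hr.2 (hm ▸ gA) (hm ▸ iA) (hm ▸ hA0)).elim
      · exact (noInv hR r hr.2 (hm ▸ gA') (hm ▸ iA') (hm ▸ hA'0)).elim
    · have htop : f.muImage H = ⊤ := AddSubgroup.eq_top_of_card_eq _ (by rw [h, card_Mt])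
      obtain ⟨r, hr, hm⟩ : mA ∈ f.muImage H := htop ▸ AddSubgroup.mem_top _
      exact (noInv hR r hr.2 (hm ▸ gA) (hm ▸ iA) (hm ▸ hA0)).elim
  push Not at hR
  obtain ⟨x, hx⟩ := hR
  by_cases hcase : Nat.card (f.muImage H) = 8 ∧ mN ∈ f.muImage H
  · obtain ⟨h, r, hr, hm⟩ := hcase
    exact c.bound H 2 8 le_rfl (hstrict r hr (f.no_root hr.2 (hm ▸ gN) (hm ▸ hN0) (Or.inl (hm ▸ htc))))
      (hmap' 8 h.le)
  -- every matrix occurs
  have hsub : ∀ M ∈ f.muImage H, M ∈ f.muImage ⊤ := fun M ⟨r, hr, hm⟩ => ⟨r, ⟨mem_top _, hr.2⟩, hm⟩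
  have h8' : 8 ≤ Nat.card (f.muImage ⊤) :=
    h8.trans (Nat.card_le_card_of_injective (fun M : f.muImage H => (⟨M, hsub M M.2⟩ : f.muImage ⊤))
      fun _ _ e => Subtype.ext (congrArg (fun M : f.muImage ⊤ => (M : Mt)) e))
  have hNP : mN ∈ f.muImage ⊤ := inv_mN _ h8' fun M ⟨r, hr, hm⟩ =>
    ⟨x * r * x⁻¹, ⟨mem_top _, c.conj_R x hr.2⟩, by rw [f.mu_conj_out hx hr.2, hm]⟩
  have hall : ∀ M : Mt, M ∈ f.muImage ⊤ := by
    intro M
    by_cases hM : M ∈ f.muImage H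
    · exact hsub M hM
    rcases h816 with h | h
    · have := add_mem (hsub _ (mem_add _ h8 hM (fun hN => hcase ⟨h, hN⟩))) hNP
      rwa [add_assoc, self_add, add_zero] at this
    · rw [AddSubgroup.eq_top_of_card_eq _ (h.trans card_Mt.symm)] at hM
      exact absurd (AddSubgroup.mem_top M) hM
  obtain ⟨rA, ⟨-, hrA⟩, hmA⟩ := hall mA
  have hCE : c.C = c.E := c.C_eq_E hrA (f.inj_inj hrA (hmA ▸ iA)) (f.good_inj hrA (hmA ▸ gA)) f.hE f.hV
  obtain ⟨fN, fE, fT, fU, fU'⟩ := f.forced hCE hall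
  rcases h816 with h | h
  · refine c.bound H 2 8 le_rfl ?_ (hmap' 8 h.le)
    have key : ∀ r ∈ H ⊓ c.R, f.F r ≠ 0 →
        Nat.card (H ⊓ c.C : Subgroup P) ≤ 2 * Nat.card (sqSub H ⊓ c.C : Subgroup P) := by
      intro r hr hF
      refine hstrict r hr fun δ hδ hδ2 => hF ((f.dec_eq_zero (fourth_mem hCE hr.2)).2 ?_)
      rw [← hδ2, ← pow_mul]
      exact c.hE4 δ (hCE ▸ hδ)
    rcases exists_five _ h8 with ⟨r, hr, hm⟩ | ⟨r, hr, hm⟩ | ⟨r, hr, hm⟩ | ⟨r, hr, hm⟩ | ⟨r, hr, hm⟩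
    · exact key r hr (by rw [fN r hr.2 hm]; decide)
    · exact key r hr (by rw [fE r hr.2 hm]; decide)
    · exact key r hr (fT r hr.2 hm)
    · exact key r hr (fU r hr.2 hm)
    · exact key r hr (fU' r hr.2 hm)
  · have htop : f.muImage H = ⊤ := AddSubgroup.eq_top_of_card_eq _ (h.trans card_Mt.symm)
    obtain ⟨r1, hr1, hm1⟩ : mN ∈ f.muImage H := htop ▸ AddSubgroup.mem_top _
    obtain ⟨r2, hr2, hm2⟩ : mE ∈ f.muImage H := htop ▸ AddSubgroup.mem_top _
    have hz1 : r1 ^ 2 ∈ sqSub H ⊓ c.C := ⟨sq_mem_sqSub hr1.1, c.R_sq hr1.2⟩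
    have hz2 : r2 ^ 2 ∈ sqSub H ⊓ c.C := ⟨sq_mem_sqSub hr2.1, c.R_sq hr2.2⟩
    have he1 : (r1 ^ 2) ^ 2 = f.B.e1 := by
      rw [← f.enc_dec (fourth_mem hCE hr1.2), show f.dec ((r1 ^ 2) ^ 2) = (1, 0) from fN r1 hr1.2 hm1]
      simp [enc, z2_val]
    have he2 : (r2 ^ 2) ^ 2 = f.B.b := by
      rw [← f.enc_dec (fourth_mem hCE hr2.2), show f.dec ((r2 ^ 2) ^ 2) = (0, 1) from fE r2 hr2.2 hm2]
      simp [enc, z2_val]
    have hVG : c.V ≤ sqSub H ⊓ c.C := fun v hv => by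
      rcases f.B.hall v hv with rfl | rfl | rfl | rfl
      · exact one_mem _
      · rw [← he1]; exact pow_mem hz1 2
      · rw [← he2]; exact pow_mem hz2 2
      · rw [← he1, ← he2]; exact mul_mem (pow_mem hz1 2) (pow_mem hz2 2)
    have hEG : c.E ≤ sqSub H ⊓ c.C := fun e he => by
      have hd := hVG (f.decomp (sq_mem_E hCE hr1.2) (sq_mem_E hCE hr2.2) he1 he2 he)
      exact ((sqSub H ⊓ c.C).mul_mem_cancel_left
        (inv_mem (mul_mem (pow_mem hz1 _) (pow_mem hz2 _)))).1 hd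
    refine c.bound H 1 16 le_rfl ?_ (hmap' 16 h.le)
    rw [one_mul]
    refine card_le_of_le ?_
    intro d hd
    exact hEG (hCE ▸ hd.2)

include f in
theorem outside {H : Subgroup P} (hH : ¬ H ≤ c.R) :
    Nat.card H ≤ 2 ^ 4 * Nat.card (sqSub H) := by
  classical
  obtain ⟨h, hh, hhR⟩ := SetLike.not_le_iff_exists.1 hH
  obtain ⟨gN, -, -, -, -, -, -, htc, hN0, -⟩ := goods
  let S : Set Mt := {M | M ∈ f.muImage H ∧ tc M = M}
  have hout := c.card_map_out H c.R_index hh hhR f.mu S (fun r hr s hs => f.mu_sep hr.2 hs.2)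
    fun r hr hrC => by
      refine ⟨⟨r, hr, rfl⟩, ?_⟩
      have h1 : f.mu (h * r * h⁻¹) = f.mu r := by
        have h' := f.mu_mul hr.2 (c.C_le_R hrC)
        rw [mul_inv_cancel_left, f.mu_of_mem_C hrC, add_zero] at h'
        exact h'
      rwa [f.mu_conj_out hhR hr.2] at h1
  have hfix : ∀ M ∈ S, M = 0 ∨ M = mI ∨ M = mN ∨ M = mI + mN := fun M hM => tc_fixed M hM.2
  by_cases hN : mN ∈ f.muImage H
  · obtain ⟨r, hr, hm⟩ := hN
    refine c.bound H 2 8 le_rfl (c.card_D_strict inf_le_right (c.D_sq H) (z := r ^ 2)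
      ⟨sq_mem_sqSub hr.1, c.R_sq hr.2⟩
      (f.no_root hr.2 (hm ▸ gN) (hm ▸ hN0) (Or.inl (hm ▸ htc)))) (hout.trans (Nat.mul_le_mul_right _ ?_))
    have hS : S ⊆ ({0, mI, mN, mI + mN} : Finset Mt) := fun M hM => by
      simpa using hfix M hM
    have := (Set.ncard_le_ncard hS (Finset.finite_toSet _)).trans (le_of_eq (Set.ncard_coe_finset _))
    rw [Nat.card_coe_set_eq]
    have h4 : ({0, mI, mN, mI + mN} : Finset Mt).card ≤ 4 := by decide
    omega
  · refine c.bound H 4 4 le_rfl (c.card_D (G := sqSub H ⊓ c.C) inf_le_right (c.D_sq H))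
      (hout.trans (Nat.mul_le_mul_right _ ?_))
    have hS : ∃ M0 : Mt, S ⊆ ({0, M0} : Set Mt) := by
      by_cases hI : mI ∈ f.muImage H
      · refine ⟨mI, fun M hM => ?_⟩
        rcases hfix M hM with e | e | e | e
        · exact Or.inl e
        · exact Or.inr e
        · exact absurd (e ▸ hM.1) hN
        · exact absurd ((AddSubgroup.add_mem_cancel_left _ hI).1 (e ▸ hM.1)) hN
      · refine ⟨mI + mN, fun M hM => ?_⟩
        rcases hfix M hM with e | e | e | e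
        · exact Or.inl e
        · exact absurd (e ▸ hM.1) hI
        · exact absurd (e ▸ hM.1) hN
        · exact Or.inr e
    obtain ⟨M0, hM0⟩ := hS
    have h2 := (Set.ncard_le_ncard hM0 (Set.toFinite _)).trans
      ((Set.ncard_insert_le _ _).trans (by simp : ({M0} : Set Mt).ncard + 1 ≤ 2))
    rw [Nat.card_coe_set_eq]
    omega

end Ctx.Frame

/-- MacWilliams' theorem. -/
theorem macWilliams {P : Type*} [Group P] [Finite P] (hP : IsPGroup 2 P)
    (h : ∀ A : Subgroup P, A.Normal → IsMulCommutative A → (∀ a ∈ A, a ^ 2 = 1) → Nat.card A ≤ 4) :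
    Cfsg.SectionalPRankLE 2 4 P := by
  obtain ⟨c⟩ := exists_ctx hP h
  refine sectional_of_sq 4 fun H => ?_
  by_cases hE : Nat.card c.E ≤ 2 * Nat.card c.V
  · exact c.small hE H
  · obtain ⟨f⟩ := c.exists_frame hE
    by_cases hH : H ≤ c.R
    · exact f.inside hH
    · exact f.outside hH

end Cfsg.Agent.H81.MacW
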