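import Cfsg.Agent.H81.MacW.Frame

/-!
The fourth-power map on `R` when `C(E) = E`: a quadratic map with values in kernels.
-/

set_option autoImplicit false
set_option linter.unusedSectionVars false

namespace Cfsg.Agent.H81.MacW.Ctx.Frame

open Subgroup

variable {P : Type*} [Group P] [Finite P] {c : Ctx P} (f : Frame c)

include f in
theorem V_square {v : P} (hv : v ∈ c.V) : ∃ δ ∈ c.C, δ ^ 2 = v := by
  obtain ⟨z, rfl⟩ := f.enc_surj hv
  refine ⟨f.a1 ^ z.1.val * f.a2 ^ z.2.val,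
    c.hE_C (mul_mem (pow_mem f.ha1 _) (pow_mem f.ha2 _)), ?_⟩
  rw [Commute.mul_pow (c.hEc _ (pow_mem f.ha1 _) _ (pow_mem f.ha2 _)), ← pow_mul, ← pow_mul,
    mul_comm z.1.val, mul_comm z.2.val, pow_mul, pow_mul, f.hs1, f.hs2]
  rfl

/-- An element with equivariant good matrix has no square root of its square in `C`. -/
theorem no_root {s : P} (hs : s ∈ c.R) (hg : Good (f.mu s)) (h0 : f.mu s ≠ 0)
    (heq : tc (f.mu s) = f.mu s ∨ ∀ p : P, p ∈ c.R) : ∀ δ ∈ c.C, δ ^ 2 ≠ s ^ 2 := by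
  refine c.good_contra hs (fun h => h0 (f.mu_of_mem_C h)) (f.good_inj hs hg) (fun p e he => ?_)
    f.hE f.hV
  have hmu : f.mu (p * s * p⁻¹) = f.mu s := by
    by_cases hp : p ∈ c.R
    · exact f.mu_conj_in hp hs
    · rcases heq with h | h
      · rw [f.mu_conj_out hp hs, h]
      · exact absurd (h p) hp
  rw [f.fund (c.conj_R p hs) he, f.fund hs he, hmu]

/-- The fourth power in coordinates. -/
noncomputable def F (r : P) : Lv := f.dec ((r ^ 2) ^ 2)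

variable (hCE : c.C = c.E)

include hCE in
theorem sq_mem_E {r : P} (hr : r ∈ c.R) : r ^ 2 ∈ c.E := hCE ▸ c.R_sq hr

include hCE in
theorem fourth_mem {r : P} (hr : r ∈ c.R) : (r ^ 2) ^ 2 ∈ c.V := c.sq_mem_V (sq_mem_E hCE hr)

include hCE in
theorem F_ker {r : P} (hr : r ∈ c.R) : app (f.mu r) (f.F r) = 0 := by
  have h : kc (r ^ 2) r = 1 := by
    rw [kc, (Commute.self_pow r 2).eq, mul_inv_cancel_right, mul_inv_cancel]
  rw [f.fund hr (sq_mem_E hCE hr), ← f.enc_zero] at h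
  exact f.enc_inj h

include hCE in
theorem F_inj_eq_zero {r : P} (hr : r ∈ c.R) (h : Inj (f.mu r)) : f.F r = 0 := h _ (f.F_ker hCE hr)

/-- The polar map. -/
noncomputable def G (r s : P) : Lv := f.dec (((r * s)⁻¹ * (s * r)) ^ 2)

include hCE in
theorem F_mul {r s : P} (hr : r ∈ c.R) (hs : s ∈ c.R) :
    f.F (r * s) = f.F r + f.F s + f.G r s := by
  have hd : (r * s)⁻¹ * (s * r) ∈ c.E := hCE ▸ c.R_comm hr hs
  have hd' : s⁻¹ * ((r * s)⁻¹ * (s * r)) * s ∈ c.E := by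
    have h := c.conj_E s⁻¹ hd; rwa [inv_inv] at h
  have e1 : (r * s) ^ 2 = r ^ 2 * s ^ 2 * (s⁻¹ * ((r * s)⁻¹ * (s * r)) * s) := by
    simp only [pow_two]; group
  have e2 : (s⁻¹ * ((r * s)⁻¹ * (s * r)) * s) ^ 2 = ((r * s)⁻¹ * (s * r)) ^ 2 := by
    have h := conj_pow (i := 2) (a := s⁻¹) (b := (r * s)⁻¹ * (s * r))
    rw [inv_inv] at h
    rw [h]
    have h' := c.R_fix (inv_mem hs) (c.sq_mem_V hd)
    rwa [inv_inv] at h'
  have hr2 := sq_mem_E hCE hr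
  have hs2 := sq_mem_E hCE hs
  simp only [F, G]
  rw [e1, Commute.mul_pow (c.hEc _ (mul_mem hr2 hs2) _ hd'), Commute.mul_pow (c.hEc _ hr2 _ hs2), e2,
    f.dec_mul (mul_mem (c.sq_mem_V hr2) (c.sq_mem_V hs2)) (c.sq_mem_V hd),
    f.dec_mul (c.sq_mem_V hr2) (c.sq_mem_V hs2)]

include hCE in
theorem G_mul {r s t : P} (hr : r ∈ c.R) (hs : s ∈ c.R) (ht : t ∈ c.R) :
    f.G r (s * t) = f.G r s + f.G r t := by
  have h1 : (r * t)⁻¹ * (t * r) ∈ c.E := hCE ▸ c.R_comm hr ht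
  have h2 : (r * s)⁻¹ * (s * r) ∈ c.E := hCE ▸ c.R_comm hr hs
  have h2' : t⁻¹ * ((r * s)⁻¹ * (s * r)) * t ∈ c.E := by
    have h := c.conj_E t⁻¹ h2; rwa [inv_inv] at h
  have e : (r * (s * t))⁻¹ * (s * t * r) =
      t⁻¹ * ((r * s)⁻¹ * (s * r)) * t * ((r * t)⁻¹ * (t * r)) := by group
  have e2 : (t⁻¹ * ((r * s)⁻¹ * (s * r)) * t) ^ 2 = ((r * s)⁻¹ * (s * r)) ^ 2 := by
    have h := conj_pow (i := 2) (a := t⁻¹) (b := (r * s)⁻¹ * (s * r))
    rw [inv_inv] at h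
    rw [h]
    have h' := c.R_fix (inv_mem ht) (c.sq_mem_V h2)
    rwa [inv_inv] at h'
  simp only [G]
  rw [e, Commute.mul_pow (c.hEc _ h2' _ h1), e2, f.dec_mul (c.sq_mem_V h2) (c.sq_mem_V h1)]

include hCE in
/-- The cubic identity. -/
theorem F_triple {r s t : P} (hr : r ∈ c.R) (hs : s ∈ c.R) (ht : t ∈ c.R)
    (h1 : Inj (f.mu r + f.mu s)) (h2 : Inj (f.mu r + f.mu t)) (h3 : Inj (f.mu s + f.mu t))
    (h4 : Inj (f.mu r + (f.mu s + f.mu t))) : f.F r + f.F s + f.F t = 0 := by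
  rw [← f.mu_mul hr hs] at h1
  rw [← f.mu_mul hr ht] at h2
  rw [← f.mu_mul hs ht] at h3 h4
  rw [← f.mu_mul hr (mul_mem hs ht)] at h4
  have a1 := f.F_inj_eq_zero hCE (mul_mem hr hs) h1
  have a2 := f.F_inj_eq_zero hCE (mul_mem hr ht) h2
  have a3 := f.F_inj_eq_zero hCE (mul_mem hs ht) h3
  have a4 := f.F_inj_eq_zero hCE (mul_mem hr (mul_mem hs ht)) h4
  rw [f.F_mul hCE hr hs] at a1
  rw [f.F_mul hCE hr ht] at a2
  rw [f.F_mul hCE hr (mul_mem hs ht), a3, f.G_mul hCE hr hs ht] at a4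
  revert a1 a2 a4
  generalize f.F r = x
  generalize f.F s = y
  generalize f.F t = z
  generalize f.G r s = u
  generalize f.G r t = w
  intro a1 a2 a4
  have hu : ∀ a b : Lv, a + b = 0 → b = a := by decide
  have e1 := hu _ _ a1
  have e2 := hu _ _ a2
  rw [e1, e2] at a4
  have : ∀ x y z : Lv, x + 0 + (x + y + (x + z)) = 0 → x + y + z = 0 := by decide
  exact this x y z a4

include hCE in
/-- If every matrix occurs, the five special fourth powers are forced. -/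
theorem forced (hall : ∀ M : Mt, M ∈ f.muImage ⊤) :
    (∀ r ∈ c.R, f.mu r = mN → f.F r = (1, 0)) ∧ (∀ r ∈ c.R, f.mu r = mE → f.F r = (0, 1)) ∧
      (∀ r ∈ c.R, f.mu r = mT → f.F r ≠ 0) ∧ (∀ r ∈ c.R, f.mu r = mU → f.F r ≠ 0) ∧
      (∀ r ∈ c.R, f.mu r = mU' → f.F r ≠ 0) := by
  obtain ⟨gN, -, -, -, -, -, -, htc, hN0, -⟩ := goods
  have hN : ∀ r ∈ c.R, f.mu r = mN → f.F r = (1, 0) := fun r hr hm => by
    have hker := f.F_ker hCE hr
    rw [hm] at hker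
    refine kernel_N _ hker fun h0 => ?_
    have hV : r ^ 2 ∈ c.V := ⟨sq_mem_E hCE hr, (f.dec_eq_zero (fourth_mem hCE hr)).1 h0⟩
    obtain ⟨δ, hδ, hδ2⟩ := f.V_square hV
    exact f.no_root hr (hm ▸ gN) (hm ▸ hN0) (Or.inl (hm ▸ htc)) δ hδ hδ2
  obtain ⟨rN, ⟨-, hrN⟩, mN'⟩ := hall mN
  obtain ⟨rE, ⟨-, hrE⟩, mE'⟩ := hall mE
  obtain ⟨rT, ⟨-, hrT⟩, mT'⟩ := hall mT
  obtain ⟨rU, ⟨-, hrU⟩, mU0⟩ := hall mU
  obtain ⟨rV, ⟨-, hrV⟩, mV0⟩ := hall mU'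
  obtain ⟨i1, i2, i3, i4, i5, i6, i7, i8⟩ := triple_invertible
  have hET : ∀ a b : P, a ∈ c.R → b ∈ c.R → f.mu a = mE → f.mu b = mT →
      f.F a = (0, 1) ∧ f.F b = (1, 1) := by
    intro a b ha hb ma mb
    have h := f.F_triple hCE hrN ha hb (by rwa [mN', ma]) (by rwa [mN', mb]) (by rwa [ma, mb])
      (by rwa [mN', ma, mb])
    rw [hN rN hrN mN'] at h
    exact kernels_ET _ _ (ma ▸ f.F_ker hCE ha) (mb ▸ f.F_ker hCE hb) h
  have hUU : ∀ a b : P, a ∈ c.R → b ∈ c.R → f.mu a = mU → f.mu b = mU' →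
      f.F a ≠ 0 ∧ f.F b ≠ 0 := by
    intro a b ha hb ma mb
    have h := f.F_triple hCE hrN ha hb (by rwa [mN', ma]) (by rwa [mN', mb]) (by rwa [ma, mb])
      (by rwa [mN', ma, mb])
    rw [hN rN hrN mN'] at h
    exact kernels_UU _ _ (ma ▸ f.F_ker hCE ha) (mb ▸ f.F_ker hCE hb) h
  exact ⟨hN, fun r hr hm => (hET r rT hr hrT hm mT').1,
    fun r hr hm => by rw [(hET rE r hrE hr mE' hm).2]; decide,
    fun r hr hm => (hUU r rV hr hrV hm mV0).1, fun r hr hm => (hUU rU r hrU hr mU0 hm).2⟩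

end Cfsg.Agent.H81.MacW.Ctx.Frame
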