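import Cfsg.Agent.H81.MacW.Setup
import Cfsg.Agent.H24.PGroupBasic

/-!
Involutions acting on `E` as `1 + 2M`, and the absence of larger abelian exponent above `E`.
-/

set_option autoImplicit false
set_option linter.unusedSectionVars false

namespace Cfsg.Agent.H81.MacW.Ctx

open Subgroup

variable {P : Type*} [Group P] [Finite P] (c : Ctx P)

include c in
/-- If the powers of `a` of order dividing four have order dividing two, then `a ^ 2 = 1`. -/
theorem descend (a : P) (h : ∀ i : ℕ, (a ^ i) ^ 4 = 1 → (a ^ i) ^ 2 = 1) : a ^ 2 = 1 := by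
  obtain ⟨k, hk⟩ := c.hP a
  induction k with
  | zero => rw [pow_zero, pow_one] at hk; rw [hk, one_pow]
  | succ n ih =>
    rcases n with _ | n
    · simpa using hk
    · refine ih ?_
      have h4 : (a ^ 2 ^ n) ^ 4 = 1 := by
        rw [← pow_mul]
        have : 2 ^ n * 4 = 2 ^ (n + 1 + 1) := by ring
        rw [this]; exact hk
      have h2 := h _ h4
      rw [← pow_mul, ← pow_succ] at h2
      exact h2

theorem kc_inv {r e : P} (hr : r ∈ c.R) (he : e ∈ c.E) : kc e r⁻¹ = kc e r := by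
  have h := c.kc_mul_right hr (inv_mem hr) he
  rw [mul_inv_cancel, show kc e 1 = 1 by simp [kc]] at h
  rw [← c.V_inv (c.kc_mem hr he)]
  exact (inv_eq_of_mul_eq_one_right h.symm).symm

/-- `s⁻¹ e s = kc e s · e`. -/
theorem conj_inv_eq {r e : P} (hr : r ∈ c.R) (he : e ∈ c.E) : r⁻¹ * e * r = kc e r * e := by
  rw [← c.kc_inv hr he]; simp [kc]

/-- `M` injective: the square of `s` is an element of `V`. -/
theorem fixed_sq {s : P} (hs : s ∈ c.R) (hinj : ∀ e ∈ c.E, kc e s = 1 → e ^ 2 = 1) :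
    s ^ 2 ∈ c.V := by
  have hc0 := c.R_sq hs
  have h1 : (s ^ 2) ^ 2 = 1 := c.descend _ fun i hi => by
    refine hinj _ (c.hC4 _ (pow_mem hc0 i) hi) ?_
    rw [kc, ← pow_mul, (Commute.self_pow s (2 * i)).eq, mul_inv_cancel_right, mul_inv_cancel]
  exact ⟨c.hC4 _ hc0 (by rw [show (4 : ℕ) = 2 * 2 from rfl, pow_mul, h1, one_pow]), h1⟩

/-- `1 + M` injective: a lift with square in `V` can be adjusted to an involution. -/
theorem adjust {s : P} (hs : s ∈ c.R) (hinj : ∀ e ∈ c.E, kc e s = e ^ 2 → e ^ 2 = 1)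
    (hE : Nat.card c.E = 16) (hV : Nat.card c.V = 4) (hs2 : s ^ 2 ∈ c.V) :
    ∃ e ∈ c.E, (s * e) ^ 2 = 1 := by
  let g : c.E →* c.V :=
    { toFun := fun e => ⟨kc (e : P) s * (e : P) ^ 2, mul_mem (c.kc_mem hs e.2) (c.sq_mem_V e.2)⟩
      map_one' := by ext; simp [kc]
      map_mul' := fun a b => by
        refine Subtype.ext ?_
        show kc ((a : P) * b) s * ((a : P) * b) ^ 2 = kc (a : P) s * (a : P) ^ 2 * (kc (b : P) s * (b : P) ^ 2)
        rw [c.kc_mul_left s a.2 b.2, Commute.mul_pow (c.hEc a a.2 b b.2)]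
        have e2 := c.V_comm (c.kc_mem hs b.2) (c.sq_mem_V a.2)
        calc kc (a : P) s * kc (b : P) s * ((a : P) ^ 2 * (b : P) ^ 2)
            = kc (a : P) s * (kc (b : P) s * (a : P) ^ 2) * (b : P) ^ 2 := by simp only [mul_assoc]
          _ = kc (a : P) s * ((a : P) ^ 2 * kc (b : P) s) * (b : P) ^ 2 := by rw [e2]
          _ = _ := by simp only [mul_assoc] }
  have hker : Nat.card g.ker ≤ 4 := by
    rw [← hV]
    refine Nat.card_le_card_of_injective (fun e : g.ker => (⟨((e : c.E) : P), (e : c.E).2, ?_⟩ : c.V))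
      (fun a b h => Subtype.ext (Subtype.ext (congrArg (fun v : c.V => (v : P)) h)))
    have he := congrArg Subtype.val (MonoidHom.mem_ker.1 e.2)
    refine hinj _ (e : c.E).2 ?_
    change kc ((e : c.E) : P) s * ((e : c.E) : P) ^ 2 = 1 at he
    rw [← c.V_inv (c.sq_mem_V (e : c.E).2)]
    exact (mul_eq_one_iff_eq_inv.1 he)
  have hsurj : g.range = ⊤ := by
    refine eq_top_of_le_card _ ?_
    rw [hV]
    have h := card_eq_card_quotient_mul_card_subgroup g.ker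
    rw [Nat.card_congr (QuotientGroup.quotientKerEquivRange g).toEquiv, hE] at h
    have := Nat.mul_le_mul_left (Nat.card g.range) hker
    omega
  obtain ⟨e, he⟩ : (⟨s ^ 2, hs2⟩ : c.V) ∈ g.range := hsurj ▸ mem_top _
  refine ⟨e, e.2, ?_⟩
  have he' : kc (e : P) s * (e : P) ^ 2 = s ^ 2 := congrArg Subtype.val he
  have e1 : (s * (e : P)) ^ 2 = s ^ 2 * (s⁻¹ * (e : P) * s * (e : P)) := by simp only [pow_two]; group
  rw [e1, c.conj_inv_eq hs e.2, mul_assoc (kc (e : P) s), ← pow_two (e : P), he', ← pow_two]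
  exact hs2.2

/-- If `s ^ 2` is a square in `C`, some lift of the same action has square in `V`. -/
theorem sq_root {s δ : P} (hs : s ∈ c.R) (hδ : δ ∈ c.C) (h : δ ^ 2 = s ^ 2) :
    s * δ⁻¹ ∈ c.R ∧ (s * δ⁻¹) ^ 2 ∈ c.V ∧ ∀ e ∈ c.E, kc e (s * δ⁻¹) = kc e s := by
  have hδR := c.C_le_R hδ
  refine ⟨mul_mem hs (inv_mem hδR), ?_, fun e he => by
    rw [c.kc_mul_right hs (inv_mem hδR) he, c.kc_of_mem_C (inv_mem hδ) he, mul_one]⟩
  set δ' := s⁻¹ * δ * s with hδ'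
  have hδ'C : δ' ∈ c.C := by have h' := c.conj_C s⁻¹ hδ; rwa [inv_inv] at h'
  have hη : δ⁻¹ * δ' ∈ c.V := c.sq_fibre hδ hδ'C (by
    rw [hδ', show (s⁻¹ * δ * s) ^ 2 = s⁻¹ * δ ^ 2 * s by simp only [pow_two]; group, h]
    simp only [pow_two]; group)
  set η := δ⁻¹ * δ' with hη'
  have e1 : (s * δ⁻¹) ^ 2 = s ^ 2 * δ'⁻¹ * δ⁻¹ := by rw [hδ']; simp only [pow_two]; group
  have e2 : δ'⁻¹ = η⁻¹ * δ⁻¹ := by rw [hη']; group
  have e3 : η⁻¹ * δ⁻¹ = δ⁻¹ * η⁻¹ := c.mem_C.1 (inv_mem hδ) _ (inv_mem hη.1)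
  rw [e1, ← h, e2, e3]
  have : δ ^ 2 * (δ⁻¹ * η⁻¹) * δ⁻¹ = δ * η⁻¹ * δ⁻¹ := by simp only [pow_two]; group
  rw [this, c.R_fix hδR (inv_mem hη)]
  exact inv_mem hη

/-- The key contradiction with normal rank two. -/
theorem good_contra {s : P} (hs : s ∈ c.R) (hsC : s ∉ c.C)
    (hinj : ∀ e ∈ c.E, kc e s = e ^ 2 → e ^ 2 = 1)
    (heq : ∀ p : P, ∀ e ∈ c.E, kc e (p * s * p⁻¹) = kc e s)
    (hE : Nat.card c.E = 16) (hV : Nat.card c.V = 4) : ∀ δ ∈ c.C, δ ^ 2 ≠ s ^ 2 := by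
  intro δ hδ hδ2
  obtain ⟨hs'R, hs'2, hs'k⟩ := c.sq_root hs hδ hδ2
  obtain ⟨e, he, hy⟩ := c.adjust hs'R (fun f hf h => hinj f hf (by rwa [hs'k f hf] at h)) hE hV hs'2
  have heR : e ∈ c.R := c.C_le_R (c.hE_C he)
  set y := s * δ⁻¹ * e with hy'
  have hyR : y ∈ c.R := mul_mem hs'R heR
  have hyk : ∀ f ∈ c.E, kc f y = kc f s := fun f hf => by
    rw [hy', c.kc_mul_right hs'R heR hf, c.kc_of_mem_C (c.hE_C he) hf, mul_one, hs'k f hf]
  have hyC : y ∉ c.C := fun hyC => hsC (c.mem_C_of_kc fun f hf => by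
    rw [← hyk f hf]; exact c.kc_of_mem_C hyC hf)
  have hyinv : y⁻¹ = y := inv_eq_of_mul_eq_one_right (by rw [← pow_two]; exact hy)
  clear_value y
  have hconj : ∀ p : P, ∃ v ∈ c.V, p * y * p⁻¹ = v * y := by
    intro p
    set y' := p * y * p⁻¹ with hy''
    have hy'R : y' ∈ c.R := c.conj_R p hyR
    have hy'2 : y' * y' = 1 := by rw [← pow_two, hy'', conj_pow, hy, mul_one, mul_inv_cancel]
    have hcC : y' * y ∈ c.C := c.mem_C_of_kc fun f hf => by
      have hpf : p⁻¹ * f * p ∈ c.E := by have := c.conj_E p⁻¹ hf; rwa [inv_inv] at this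
      rw [c.kc_mul_right hy'R hyR hf, hy'', kc_conj, hyk _ hpf, ← kc_conj, heq p f hf, hyk f hf,
        ← pow_two]
      exact (c.kc_mem hs hf).2
    have hinvd : ∀ i : ℕ, y * (y' * y) ^ i * y⁻¹ = ((y' * y) ^ i)⁻¹ := fun i => by
      have hb : y * (y' * y) * y⁻¹ = (y' * y)⁻¹ := by
        rw [mul_inv_rev y' y, hyinv, inv_eq_of_mul_eq_one_right hy'2, ← mul_assoc, mul_assoc (y * y') y y,
          ← pow_two y, hy, mul_one]
      rw [← conj_pow, hb, inv_pow]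
    have h2 : (y' * y) ^ 2 = 1 := c.descend _ fun i hi => by
      have hw := c.hC4 _ (pow_mem hcC i) hi
      refine hinj _ hw ?_
      rw [← hyk _ hw, kc, hinvd i]
      calc ((y' * y) ^ i)⁻¹ * ((y' * y) ^ i)⁻¹ = (((y' * y) ^ i) ^ 2)⁻¹ := by
            rw [pow_two, mul_inv_rev]
        _ = _ := c.V_inv (c.sq_mem_V hw)
    refine ⟨y' * y, ⟨c.hC4 _ hcC (by rw [show (4 : ℕ) = 2 * 2 from rfl, pow_mul, h2, one_pow]), h2⟩, ?_⟩
    rw [mul_assoc, ← pow_two, hy, mul_one]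
  -- the normal elementary abelian subgroup of order eight
  have hvy : ∀ v ∈ c.V, v * y = y * v := fun v hv => c.mem_R.1 hyR v hv
  let A : Subgroup P :=
    { carrier := {x | ∃ v ∈ c.V, x = v ∨ x = v * y}
      one_mem' := ⟨1, one_mem _, Or.inl rfl⟩
      mul_mem' := by
        rintro a b ⟨v, hv, h | h⟩ ⟨w, hw, h' | h'⟩ <;> subst a b
        · exact ⟨v * w, mul_mem hv hw, Or.inl rfl⟩
        · exact ⟨v * w, mul_mem hv hw, Or.inr (mul_assoc _ _ _).symm⟩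
        · exact ⟨v * w, mul_mem hv hw, Or.inr (by rw [mul_assoc, ← hvy w hw, ← mul_assoc])⟩
        · exact ⟨v * w, mul_mem hv hw, Or.inl (by
            rw [mul_assoc v y, ← mul_assoc y w y, ← hvy w hw, mul_assoc w y y, ← pow_two y, hy, mul_one])⟩
      inv_mem' := by
        rintro a ⟨v, hv, h | h⟩ <;> subst a
        · exact ⟨v⁻¹, inv_mem hv, Or.inl rfl⟩
        · exact ⟨v, hv, Or.inr (by rw [mul_inv_rev, hyinv, c.V_inv hv]; exact (hvy v hv).symm)⟩ }
  have hAn : A.Normal := ⟨by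
    rintro a ⟨v, hv, rfl | rfl⟩ p
    · exact ⟨_, c.conj_V p hv, Or.inl rfl⟩
    · obtain ⟨w, hw, ew⟩ := hconj p
      exact ⟨p * v * p⁻¹ * w, mul_mem (c.conj_V p hv) hw, Or.inr (by rw [mul_assoc _ w, ← ew]; group)⟩⟩
  have hAc : IsMulCommutative A := ⟨⟨by
    have key : ∀ a ∈ A, (∀ v ∈ c.V, v * a = a * v) ∧ a * y = y * a := by
      rintro a ⟨v, hv, rfl | rfl⟩
      · exact ⟨fun w hw => c.V_comm hw hv, hvy a hv⟩
      · exact ⟨fun w hw => by rw [← mul_assoc, c.V_comm hw hv, mul_assoc, hvy w hw, ← mul_assoc],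
          by rw [mul_assoc, ← pow_two, hy, mul_one, ← mul_assoc, ← hvy v hv, mul_assoc, ← pow_two, hy,
            mul_one]⟩
    rintro ⟨a, ha⟩ ⟨b, v, hv, rfl | rfl⟩ <;> refine Subtype.ext ?_
    · exact ((key a ha).1 b hv).symm
    · show a * (v * y) = v * y * a
      rw [← mul_assoc, ← (key a ha).1 v hv, mul_assoc, (key a ha).2, ← mul_assoc]⟩⟩
  have hA2 : ∀ a ∈ A, a ^ 2 = 1 := by
    rintro a ⟨v, hv, rfl | rfl⟩
    · exact hv.2
    · rw [Commute.mul_pow (hvy v hv), hv.2, hy, one_mul]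
  have hAcard := c.hrk A hAn hAc hA2
  have hlt : c.V < A :=
    lt_of_le_of_ne (fun v hv => ⟨v, hv, Or.inl rfl⟩) fun h => hyC
      (c.hE_C (h.symm ▸ (⟨1, one_mem _, Or.inr (one_mul y).symm⟩ : y ∈ A) : y ∈ c.V).1)
  have hlt' : Nat.card c.V < Nat.card A :=
    not_le.1 fun h => hlt.ne (Subgroup.eq_of_le_of_card_ge hlt.le h)
  omega

/-- `M` and `1 + M` injective for some `s`: then `C = E`. -/
theorem C_eq_E {s : P} (hs : s ∈ c.R) (h1 : ∀ e ∈ c.E, kc e s = 1 → e ^ 2 = 1)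
    (h2 : ∀ e ∈ c.E, kc e s = e ^ 2 → e ^ 2 = 1)
    (hE : Nat.card c.E = 16) (hV : Nat.card c.V = 4) : c.C = c.E := by
  haveI : Fact (Nat.Prime 2) := ⟨Nat.prime_two⟩
  haveI := c.hEn
  by_contra hne
  obtain ⟨L, hLn, hEL, hLC, hLcard, hcomm⟩ :=
    Cfsg.Agent.H24.exists_normal_between (p := 2) c.hP c.hE_C (Ne.symm hne)
  obtain ⟨w, hwL, hwE⟩ : ∃ w ∈ L, w ∉ c.E := by
    by_contra hh
    push Not at hh
    rw [le_antisymm hh hEL] at hLcard
    have : 0 < Nat.card c.E := Nat.card_pos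
    omega
  have hw2 : w ^ 2 ∈ c.E := by
    have hidx : (c.E.subgroupOf L).index = 2 := by
      have h := Subgroup.index_mul_card (c.E.subgroupOf L)
      rw [Nat.card_congr (subgroupOfEquivOfLe hEL).toEquiv, hLcard] at h
      exact Nat.eq_of_mul_eq_mul_right Nat.card_pos h
    simpa [mem_subgroupOf] using Subgroup.sq_mem_of_index_two hidx ⟨w, hwL⟩
  obtain ⟨e, he, hy⟩ := c.adjust hs h2 hE hV (c.fixed_sq hs h1)
  have heR : e ∈ c.R := c.C_le_R (c.hE_C he)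
  set y := s * e with hy'
  have hyk : ∀ f ∈ c.E, kc f y = kc f s := fun f hf => by
    rw [hy', c.kc_mul_right hs heR hf, c.kc_of_mem_C (c.hE_C he) hf, mul_one]
  have hyR : y ∈ c.R := mul_mem hs heR
  have hyinv : y⁻¹ = y := inv_eq_of_mul_eq_one_right (by rw [← pow_two]; exact hy)
  have hwC : w ∈ c.C := hLC hwL
  set d := w⁻¹ * (y * w * y⁻¹) with hd
  have hdE : d ∈ c.E := by
    have hh := hcomm (commutator_mem_commutator (mem_top y) hwL)
    rw [commutatorElement_def] at hh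
    have := c.hEn.conj_mem _ hh w⁻¹
    rw [inv_inv] at this
    convert this using 1
    rw [hd]; group
  have hwd : w * d = y * w * y⁻¹ := by rw [hd]; group
  have hcwd : Commute w d := (c.mem_C.1 hwC d hdE).symm
  have ha : kc (w ^ 2) s = d ^ 2 := by
    rw [← hyk _ hw2, kc, ← conj_pow, ← hwd, hcwd.mul_pow, c.hEc _ hw2 _ (c.sq_mem_V hdE).1,
      mul_inv_cancel_right]
  have hfix : d ^ 2 * kc d s = 1 := by
    have hyy : y * (y * w * y⁻¹) * y⁻¹ = w := by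
      rw [show y * (y * w * y⁻¹) * y⁻¹ = y ^ 2 * w * (y ^ 2)⁻¹ by simp only [pow_two]; group, hy, one_mul,
        inv_one, mul_one]
    have hh : w * d * (kc d y * d) = w := by
      nth_rewrite 2 [← hyy]
      rw [← hwd, show y * (w * d) * y⁻¹ = y * w * y⁻¹ * (y * d * y⁻¹) by group, ← hwd]
      congr 1
      simp [kc]
    rw [hyk d hdE, mul_assoc w, mul_eq_left, c.hEc _ (c.kc_mem hs hdE).1 _ hdE, ← mul_assoc, ← pow_two] at hh
    exact hh
  have hd2 : d ^ 2 = 1 := by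
    refine h2 d hdE ?_
    rw [← c.V_inv (c.sq_mem_V hdE)]
    exact eq_inv_of_mul_eq_one_right hfix
  have hw4 : (w ^ 2) ^ 2 = 1 := h1 _ hw2 (ha.trans hd2)
  exact hwE (c.hC4 w hwC (by rw [show (4 : ℕ) = 2 * 2 from rfl, pow_mul]; exact hw4))

end Cfsg.Agent.H81.MacW.Ctx
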