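import Mathlib

/-!
`2 × 2` matrices over `ZMod 2` as pairs of columns; the finite facts used for MacWilliams' theorem.
-/

set_option autoImplicit false

namespace Cfsg.Agent.H81.MacW

/-- Coordinates on `V`. -/
abbrev Lv := ZMod 2 × ZMod 2

/-- Matrices as pairs of columns. -/
abbrev Mt := Lv × Lv

/-- Matrix times vector. -/
def app (M : Mt) (z : Lv) : Lv :=
  (z.1 * M.1.1 + z.2 * M.2.1, z.1 * M.1.2 + z.2 * M.2.2)

/-- The transvection fixing `(1,0)`. -/
def tv (z : Lv) : Lv := (z.1 + z.2, z.2)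

/-- Conjugation by the transvection. -/
def tc (M : Mt) : Mt := (tv M.1, tv (M.1 + M.2))

def mN : Mt := ((0, 0), (1, 0))
def mI : Mt := ((1, 0), (0, 1))
def mE : Mt := ((0, 1), (0, 0))
def mT : Mt := ((1, 1), (1, 1))
def mA : Mt := ((1, 1), (1, 0))
def mA' : Mt := ((0, 1), (1, 1))
def mU : Mt := ((1, 1), (0, 0))
def mU' : Mt := ((0, 1), (0, 1))

/-- `1 + M` is injective. -/
def Good (M : Mt) : Prop := ∀ z : Lv, app M z = z → z = 0

/-- `M` is injective. -/
def Inj (M : Mt) : Prop := ∀ z : Lv, app M z = 0 → z = 0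

theorem goods : Good mN ∧ Good mE ∧ Good mT ∧ Good mA ∧ Good mA' ∧ Inj mA ∧ Inj mA' ∧ tc mN = mN ∧
    mN ≠ 0 ∧ mE ≠ 0 ∧ mT ≠ 0 ∧ mA ≠ 0 ∧ mA' ≠ 0 := by
  unfold Good Inj; refine ⟨?_, ?_, ?_, ?_, ?_, ?_, ?_, ?_, ?_, ?_, ?_, ?_, ?_⟩ <;> decide

theorem tc_fixed : ∀ M : Mt, tc M = M → M = 0 ∨ M = mI ∨ M = mN ∨ M = mI + mN := by decide

theorem self_add : ∀ M : Mt, M + M = 0 := by decide

theorem triple_invertible : Inj (mN + mE) ∧ Inj (mN + mT) ∧ Inj (mE + mT) ∧ Inj (mN + (mE + mT)) ∧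
    Inj (mN + mU) ∧ Inj (mN + mU') ∧ Inj (mU + mU') ∧ Inj (mN + (mU + mU')) := by
  unfold Inj; refine ⟨?_, ?_, ?_, ?_, ?_, ?_, ?_, ?_⟩ <;> decide

theorem kernel_N : ∀ z : Lv, app mN z = 0 → z ≠ 0 → z = (1, 0) := by decide

theorem kernels_ET : ∀ x y : Lv, app mE x = 0 → app mT y = 0 → (1, 0) + x + y = (0 : Lv) →
    x = (0, 1) ∧ y = (1, 1) := by decide

theorem kernels_UU : ∀ x y : Lv, app mU x = 0 → app mU' y = 0 → (1, 0) + x + y = (0 : Lv) →
    x ≠ 0 ∧ y ≠ 0 := by decide

theorem card_Mt : Nat.card Mt = 16 := by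
  rw [Nat.card_eq_fintype_card]; rfl

/-- A subgroup with at least eight elements is a hyperplane or everything. -/
theorem mem_add (W : AddSubgroup Mt) (hW : 8 ≤ Nat.card W) {a b : Mt} (ha : a ∉ W) (hb : b ∉ W) :
    a + b ∈ W := by
  by_contra hab
  let g : Fin 3 × W → Mt := fun q => (![0, a, b] q.1) + (q.2 : Mt)
  have hg : Function.Injective g := by
    rintro ⟨i, u⟩ ⟨j, v⟩ e
    simp only [g] at e
    have key : ![0, a, b] i + ![0, a, b] j ∈ W := by
      have : ![0, a, b] i + ![0, a, b] j = (u : Mt) + v := by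
        have h2 := congrArg (fun z => z + (u : Mt) + ![0, a, b] j) e
        simp only [add_assoc] at h2
        rw [show (u : Mt) + ((u : Mt) + ![0, a, b] j) = ((u : Mt) + u) + ![0, a, b] j from (add_assoc _ _ _).symm,
          self_add, zero_add] at h2
        rw [h2]
        rw [show ![0, a, b] j + ((v : Mt) + ((u : Mt) + ![0, a, b] j))
          = (![0, a, b] j + ![0, a, b] j) + ((u : Mt) + v) by abel, self_add, zero_add]
      rw [this]; exact add_mem u.2 v.2
    have hij : i = j := by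
      fin_cases i <;> fin_cases j <;>
        simp [ha, hb, hab, add_comm b a] at key ⊢
    subst hij
    exact Prod.ext rfl (Subtype.ext (add_left_cancel e))
  have := Nat.card_le_card_of_injective g hg
  rw [Nat.card_prod, Nat.card_fin, card_Mt] at this
  omega

/-- A large subgroup contains a good element. -/
theorem exists_good (W : AddSubgroup Mt) (hW : 8 ≤ Nat.card W) :
    mN ∈ W ∨ mE ∈ W ∨ mT ∈ W ∨ mA ∈ W ∨ mA' ∈ W := by
  by_contra h
  simp only [not_or] at h
  obtain ⟨h1, h2, h3, h4, h5⟩ := h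
  have n12 := mem_add W hW h1 h2
  have hI : mI ∉ W := fun hi => h3 (by
    have := add_mem n12 hi
    rwa [show mN + mE + mI = mT from by decide] at this)
  have hA : mA + (mN + mE) ∉ W := fun hh => h4 (by
    have := add_mem hh n12
    rwa [add_assoc, self_add, add_zero] at this)
  have hA' : mA' + (mN + mE) ∉ W := fun hh => h5 (by
    have := add_mem hh n12
    rwa [add_assoc, self_add, add_zero] at this)
  have := mem_add W hW hA hA'
  exact hI (by rwa [show mA + (mN + mE) + (mA' + (mN + mE)) = mI from by decide] at this)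

/-- A large subgroup meets the five special elements. -/
theorem exists_five (W : AddSubgroup Mt) (hW : 8 ≤ Nat.card W) :
    mN ∈ W ∨ mE ∈ W ∨ mT ∈ W ∨ mU ∈ W ∨ mU' ∈ W := by
  by_contra h
  simp only [not_or] at h
  obtain ⟨h1, h2, h3, h4, h5⟩ := h
  have h11 := mem_add W hW h4 h2
  have h22 := mem_add W hW h5 h2
  have hI : mI ∈ W := by
    have := add_mem h11 h22
    rwa [show mU + mE + (mU' + mE) = mI from by decide] at this
  exact h3 (by
    have := add_mem (mem_add W hW h1 h2) hI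
    rwa [show mN + mE + mI = mT from by decide] at this)

/-- A large subgroup invariant under `tc` contains `mN`. -/
theorem inv_mN (W : AddSubgroup Mt) (hW : 8 ≤ Nat.card W) (hinv : ∀ M ∈ W, tc M ∈ W) : mN ∈ W := by
  by_contra hN
  have e : tc ((1, 0), (0, 0)) = (((1, 0), (0, 0)) : Mt) + mN := by decide
  by_cases h : (((1, 0), (0, 0)) : Mt) ∈ W
  · have := hinv _ h
    rw [e] at this
    exact hN ((add_mem_cancel_left h).1 this)
  · have h' := mem_add W hW h hN
    rw [← e] at h'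
    have := hinv _ h'
    exact h (by rwa [show tc (tc ((1, 0), (0, 0))) = (((1, 0), (0, 0)) : Mt) from by decide] at this)

end Cfsg.Agent.H81.MacW
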