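import Cfsg.Agent.H81.MacW.Small
import Cfsg.Agent.H81.MacW.Invol
import Cfsg.Agent.H81.MacW.Mat

/-!
Coordinates when `E` is homocyclic of order 16: the matrix of an element of `R`.
-/

set_option autoImplicit false
set_option linter.unusedSectionVars false

namespace Cfsg.Agent.H81.MacW.Ctx

theorem z2_cases : ∀ x : ZMod 2, x = 0 ∨ x = 1 := by decide

theorem z2_val : (0 : ZMod 2).val = 0 ∧ (1 : ZMod 2).val = 1 ∧ (1 + 1 : ZMod 2) = 0 :=
  ⟨rfl, rfl, by decide⟩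

open Subgroup

variable {P : Type*} [Group P] [Finite P]

/-- Square roots in `E` of a basis of `V`. -/
structure Frame (c : Ctx P) where
  B : Basis c
  hE : Nat.card c.E = 16
  hV : Nat.card c.V = 4
  a1 : P
  a2 : P
  ha1 : a1 ∈ c.E
  ha2 : a2 ∈ c.E
  hs1 : a1 ^ 2 = B.e1
  hs2 : a2 ^ 2 = B.b

theorem exists_frame (c : Ctx P) (h : ¬ Nat.card c.E ≤ 2 * Nat.card c.V) : Nonempty (Frame c) := by
  let g : c.E →* c.V :=
    { toFun := fun e => ⟨(e : P) ^ 2, c.sq_mem_V e.2⟩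
      map_one' := by ext; simp
      map_mul' := fun a b => Subtype.ext (Commute.mul_pow (c.hEc a a.2 b b.2) 2) }
  have hker : Nat.card g.ker ≤ Nat.card c.V := by
    refine Nat.card_le_card_of_injective
      (fun e : g.ker => (⟨((e : c.E) : P), (e : c.E).2, ?_⟩ : c.V))
      (fun a b h => Subtype.ext (Subtype.ext (congrArg (fun v : c.V => (v : P)) h)))
    exact congrArg Subtype.val (MonoidHom.mem_ker.1 e.2)
  have hsplit := card_eq_card_quotient_mul_card_subgroup g.ker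
  rw [Nat.card_congr (QuotientGroup.quotientKerEquivRange g).toEquiv] at hsplit
  have hrng : Nat.card g.range ≤ Nat.card c.V := Subgroup.card_le_card_group _
  obtain ⟨n, hn⟩ := card_pow_two c.hP c.E
  obtain ⟨m, hm⟩ := card_pow_two c.hP c.V
  have h4 := c.card_V
  have hle : Nat.card c.E ≤ Nat.card c.V * Nat.card c.V := by
    rw [hsplit]; exact Nat.mul_le_mul hrng hker
  have hm2 : Nat.card c.V = 4 := by
    rw [hm] at h4 hle h ⊢
    rcases m with _ | _ | _ | m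
    · norm_num at hle h; omega
    · norm_num at hle h; omega
    · norm_num
    · rw [pow_succ, pow_succ, pow_succ] at h4
      have := Nat.one_le_two_pow (n := m)
      omega
  have hE : Nat.card c.E = 16 := by
    rw [hm2] at hle h
    rw [hn] at h hle ⊢
    rcases n with _ | _ | _ | _ | _ | n
    · norm_num at h
    · norm_num at h
    · norm_num at h
    · norm_num at h
    · norm_num
    · rw [pow_succ, pow_succ, pow_succ, pow_succ, pow_succ] at hle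
      have := Nat.one_le_two_pow (n := n)
      omega
  have htop : g.range = ⊤ := by
    refine eq_top_of_le_card _ ?_
    have h' := Nat.mul_le_mul_left (Nat.card g.range) hker
    rw [hm2] at h' ⊢
    rw [hE] at hsplit
    omega
  obtain ⟨B⟩ := c.exists_basis hm2
  obtain ⟨a, ha⟩ : (⟨B.e1, B.he1⟩ : c.V) ∈ g.range := htop ▸ mem_top _
  obtain ⟨b, hb⟩ : (⟨B.b, B.hb⟩ : c.V) ∈ g.range := htop ▸ mem_top _
  exact ⟨⟨B, hE, hm2, a, b, a.2, b.2, congrArg Subtype.val ha, congrArg Subtype.val hb⟩⟩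

namespace Frame

variable {c : Ctx P} (f : Frame c)

/-- Coordinates on `V`. -/
def enc (z : Lv) : P := f.B.e1 ^ z.1.val * f.B.b ^ z.2.val

/-- The inverse coordinates. -/
noncomputable def dec (v : P) : Lv := Function.invFun f.enc v

theorem enc_mem (z : Lv) : f.enc z ∈ c.V := mul_mem (pow_mem f.B.he1 _) (pow_mem f.B.hb _)

theorem enc_zero : f.enc 0 = 1 := by simp [enc]

theorem pow_val {v : P} (hv : v ∈ c.V) (x y : ZMod 2) : v ^ (x + y).val = v ^ x.val * v ^ y.val := by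
  have h2 : v * v = 1 := by rw [← pow_two]; exact hv.2
  rcases z2_cases x with rfl | rfl <;> rcases z2_cases y with rfl | rfl <;> simp [h2, z2_val]

theorem enc_add (z w : Lv) : f.enc (z + w) = f.enc z * f.enc w := by
  simp only [enc, Prod.fst_add, Prod.snd_add, pow_val f.B.he1, pow_val f.B.hb]
  have e := c.V_comm (pow_mem f.B.he1 w.1.val) (pow_mem f.B.hb z.2.val)
  rw [mul_assoc (f.B.e1 ^ z.1.val), ← mul_assoc (f.B.e1 ^ w.1.val), e]
  simp only [mul_assoc]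

theorem enc_inj : Function.Injective f.enc := by
  have key : ∀ z : Lv, f.enc z = 1 → z = 0 := by
    rintro ⟨x, y⟩ h
    rcases z2_cases x with rfl | rfl <;> rcases z2_cases y with rfl | rfl
    · rfl
    · exact absurd (by simpa [enc, z2_val] using h) f.B.hbne
    · exact absurd (by simpa [enc, z2_val] using h) f.B.he1ne
    · exfalso
      refine f.B.hne ?_
      simp [enc, z2_val] at h
      rw [eq_inv_of_mul_eq_one_left h, c.V_inv f.B.hb]
  intro z w h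
  have h' := key (z + w) (by rw [f.enc_add, h, ← pow_two]; exact (f.enc_mem w).2)
  have : ∀ z w : Lv, z + w = 0 → z = w := by decide
  exact this z w h'

theorem enc_surj {v : P} (hv : v ∈ c.V) : ∃ z, f.enc z = v := by
  rcases f.B.hall v hv with rfl | rfl | rfl | rfl
  · exact ⟨0, f.enc_zero⟩
  · exact ⟨(1, 0), by simp [enc, z2_val]⟩
  · exact ⟨(0, 1), by simp [enc, z2_val]⟩
  · exact ⟨(1, 1), by simp [enc, z2_val]⟩

theorem dec_enc (z : Lv) : f.dec (f.enc z) = z := Function.leftInverse_invFun f.enc_inj z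

theorem enc_dec {v : P} (hv : v ∈ c.V) : f.enc (f.dec v) = v := by
  obtain ⟨z, rfl⟩ := f.enc_surj hv
  rw [f.dec_enc]

theorem dec_mul {v w : P} (hv : v ∈ c.V) (hw : w ∈ c.V) : f.dec (v * w) = f.dec v + f.dec w := by
  obtain ⟨z, rfl⟩ := f.enc_surj hv
  obtain ⟨z', rfl⟩ := f.enc_surj hw
  rw [← f.enc_add, f.dec_enc, f.dec_enc, f.dec_enc]

theorem dec_eq_zero {v : P} (hv : v ∈ c.V) : f.dec v = 0 ↔ v = 1 := by
  obtain ⟨z, rfl⟩ := f.enc_surj hv
  rw [f.dec_enc]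
  exact ⟨fun h => h ▸ f.enc_zero, fun h => f.enc_inj (h.trans f.enc_zero.symm)⟩

theorem decomp {z1 z2 : P} (h1 : z1 ∈ c.E) (h2 : z2 ∈ c.E) (hz1 : z1 ^ 2 = f.B.e1) (hz2 : z2 ^ 2 = f.B.b)
    {e : P} (he : e ∈ c.E) :
    (z1 ^ (f.dec (e ^ 2)).1.val * z2 ^ (f.dec (e ^ 2)).2.val)⁻¹ * e ∈ c.V := by
  set z := f.dec (e ^ 2) with hz
  have hm : z1 ^ z.1.val * z2 ^ z.2.val ∈ c.E := mul_mem (pow_mem h1 _) (pow_mem h2 _)
  refine ⟨mul_mem (inv_mem hm) he, ?_⟩
  rw [Commute.mul_pow (c.hEc _ (inv_mem hm) _ he), inv_pow,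
    Commute.mul_pow (c.hEc _ (pow_mem h1 _) _ (pow_mem h2 _)), ← pow_mul, ← pow_mul, mul_comm z.1.val,
    mul_comm z.2.val, pow_mul, pow_mul, hz1, hz2, inv_mul_eq_one]
  exact f.enc_dec (c.sq_mem_V he)

/-- The matrix of an element of `R`. -/
noncomputable def mu (r : P) : Mt := (f.dec (kc f.a1 r), f.dec (kc f.a2 r))

theorem enc_pow (u : Lv) (x : ZMod 2) : f.enc u ^ x.val = f.enc (x * u.1, x * u.2) := by
  rcases z2_cases x with rfl | rfl <;> simp [enc, z2_val]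

theorem kc_pow {r e : P} (he : e ∈ c.E) : ∀ i : ℕ, kc (e ^ i) r = kc e r ^ i
  | 0 => by simp [kc]
  | i + 1 => by rw [pow_succ, c.kc_mul_left r (pow_mem he i) he, kc_pow he i, pow_succ]

theorem fund {r e : P} (hr : r ∈ c.R) (he : e ∈ c.E) :
    kc e r = f.enc (app (f.mu r) (f.dec (e ^ 2))) := by
  set z := f.dec (e ^ 2) with hz
  have h := f.decomp f.ha1 f.ha2 f.hs1 f.hs2 he
  have hm : f.a1 ^ z.1.val * f.a2 ^ z.2.val ∈ c.E := mul_mem (pow_mem f.ha1 _) (pow_mem f.ha2 _)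
  have ee : e = f.a1 ^ z.1.val * f.a2 ^ z.2.val * ((f.a1 ^ z.1.val * f.a2 ^ z.2.val)⁻¹ * e) :=
    (mul_inv_cancel_left _ _).symm
  rw [ee, c.kc_mul_left r hm h.1, c.kc_V hr h, mul_one,
    c.kc_mul_left r (pow_mem f.ha1 _) (pow_mem f.ha2 _), kc_pow f.ha1, kc_pow f.ha2,
    ← f.enc_dec (c.kc_mem hr f.ha1), ← f.enc_dec (c.kc_mem hr f.ha2), f.enc_pow, f.enc_pow,
    ← f.enc_add]
  simp [app, mu, f.dec_enc]

theorem mu_mul {r s : P} (hr : r ∈ c.R) (hs : s ∈ c.R) : f.mu (r * s) = f.mu r + f.mu s := by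
  simp only [mu, Prod.mk_add_mk, c.kc_mul_right hr hs f.ha1, c.kc_mul_right hr hs f.ha2,
    f.dec_mul (c.kc_mem hr f.ha1) (c.kc_mem hs f.ha1), f.dec_mul (c.kc_mem hr f.ha2) (c.kc_mem hs f.ha2)]

theorem mu_of_mem_C {w : P} (hw : w ∈ c.C) : f.mu w = 0 := by
  have h1 : f.dec 1 = 0 := (f.dec_eq_zero (one_mem _)).2 rfl
  simp [mu, c.kc_of_mem_C hw f.ha1, c.kc_of_mem_C hw f.ha2, h1]

theorem mem_C_of_mu {r : P} (hr : r ∈ c.R) (h : f.mu r = 0) : r ∈ c.C :=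
  c.mem_C_of_kc fun e he => by rw [f.fund hr he, h]; simp [app, enc]

theorem mu_inv {r : P} (hr : r ∈ c.R) : f.mu r⁻¹ = f.mu r := by
  have h := f.mu_mul hr (inv_mem hr)
  rw [mul_inv_cancel, f.mu_of_mem_C (one_mem _)] at h
  have : ∀ a b : Mt, 0 = a + b → b = a := by decide
  exact this _ _ h

theorem mu_sep {r s : P} (hr : r ∈ c.R) (hs : s ∈ c.R) (h : f.mu r = f.mu s) : r⁻¹ * s ∈ c.C :=
  f.mem_C_of_mu (mul_mem (inv_mem hr) hs) (by rw [f.mu_mul (inv_mem hr) hs, f.mu_inv hr, h, self_add])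

theorem mu_conj_in {x r : P} (hx : x ∈ c.R) (hr : r ∈ c.R) : f.mu (x * r * x⁻¹) = f.mu r := by
  rw [f.mu_mul (mul_mem hx hr) (inv_mem hx), f.mu_mul hx hr, f.mu_inv hx, add_right_comm, self_add,
    zero_add]

theorem mu_conj_out {x r : P} (hx : x ∉ c.R) (hr : r ∈ c.R) :
    f.mu (x * r * x⁻¹) = tc (f.mu r) := by
  have hxi : x⁻¹ ∉ c.R := fun h => hx (inv_inv x ▸ inv_mem h)
  have henc : ∀ z : Lv, x * f.enc z * x⁻¹ = f.enc (tv z) := by
    rintro ⟨u, v⟩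
    have hb := f.B.conj_b hx
    have he2 : f.B.e1 * f.B.e1 = 1 := by rw [← pow_two]; exact f.B.he1.2
    rcases z2_cases u with rfl | rfl <;> rcases z2_cases v with rfl | rfl
    · simp [enc, tv, z2_val]
    · simpa [enc, tv, z2_val] using hb
    · simpa [enc, tv, z2_val] using f.B.hfix x
    · simp only [enc, tv]
      rw [show ∀ u v : P, x * (u * v) * x⁻¹ = x * u * x⁻¹ * (x * v * x⁻¹) from fun u v => by group]
      simp [hb, f.B.hfix x, ← mul_assoc, he2, z2_val]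
  have hxr := c.conj_R x hr
  have key : ∀ a ∈ c.E, kc a (x * r * x⁻¹) = f.enc (tv (app (f.mu r) (f.dec ((x⁻¹ * a * x) ^ 2)))) := by
    intro a ha
    have ha' : x⁻¹ * a * x ∈ c.E := by have := c.conj_E x⁻¹ ha; rwa [inv_inv] at this
    rw [kc_conj, f.fund hr ha', henc]
  have hd1 : f.dec ((x⁻¹ * f.a1 * x) ^ 2) = (1, 0) := by
    rw [show (x⁻¹ * f.a1 * x) ^ 2 = x⁻¹ * f.a1 ^ 2 * x⁻¹⁻¹ by simp only [pow_two]; group, f.hs1,
      f.B.hfix, show f.B.e1 = f.enc (1, 0) by simp [enc, z2_val], f.dec_enc]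
  have hd2 : f.dec ((x⁻¹ * f.a2 * x) ^ 2) = (1, 1) := by
    rw [show (x⁻¹ * f.a2 * x) ^ 2 = x⁻¹ * f.a2 ^ 2 * x⁻¹⁻¹ by simp only [pow_two]; group, f.hs2,
      f.B.conj_b hxi, show f.B.e1 * f.B.b = f.enc (1, 1) by simp [enc, z2_val], f.dec_enc]
  have e0 : f.mu (x * r * x⁻¹) = (f.dec (kc f.a1 (x * r * x⁻¹)), f.dec (kc f.a2 (x * r * x⁻¹))) := rfl
  rw [e0, key _ f.ha1, key _ f.ha2, f.dec_enc, f.dec_enc, hd1, hd2]
  simp [app, tc, Prod.add_def]

theorem good_inj {s : P} (hs : s ∈ c.R) (h : Good (f.mu s)) :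
    ∀ e ∈ c.E, kc e s = e ^ 2 → e ^ 2 = 1 := fun e he hk => by
  rw [f.fund hs he] at hk
  have h' := congrArg f.dec hk
  rw [f.dec_enc] at h'
  exact (f.dec_eq_zero (c.sq_mem_V he)).1 (h _ h')

theorem inj_inj {s : P} (hs : s ∈ c.R) (h : Inj (f.mu s)) :
    ∀ e ∈ c.E, kc e s = 1 → e ^ 2 = 1 := fun e he hk => by
  rw [f.fund hs he, ← f.enc_zero] at hk
  exact (f.dec_eq_zero (c.sq_mem_V he)).1 (h _ (f.enc_inj hk))

/-- The matrices of a subgroup. -/
def muImage (H : Subgroup P) : AddSubgroup Mt where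
  carrier := {M | ∃ r ∈ H ⊓ c.R, f.mu r = M}
  zero_mem' := ⟨1, one_mem _, f.mu_of_mem_C (one_mem _)⟩
  add_mem' := by
    rintro _ _ ⟨r, hr, rfl⟩ ⟨s, hs, rfl⟩
    exact ⟨r * s, mul_mem hr hs, f.mu_mul hr.2 hs.2⟩
  neg_mem' := by
    rintro _ ⟨r, hr, rfl⟩
    have : ∀ M : Mt, M = -M := by decide
    exact ⟨r, hr, this _⟩

theorem mem_muImage {H : Subgroup P} {M : Mt} :
    M ∈ f.muImage H ↔ ∃ r ∈ H ⊓ c.R, f.mu r = M := Iff.rfl

end Frame

end Cfsg.Agent.H81.MacW.Ctx
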