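import Mathlib
import Cfsg.Prelude.Def_CaseTheorems

/-!
Sectional 2-rank from a bound `|H| ≤ 2^k · |⟨squares of H⟩|`, counting lemmas for squares.
-/

set_option autoImplicit false
set_option linter.unusedSectionVars false

namespace Cfsg.Agent.H81.MacW

open Subgroup

variable {P : Type*} [Group P]

/-- The subgroup generated by the squares of elements of `H`. -/
def sqSub (H : Subgroup P) : Subgroup P := closure ((fun x => x ^ 2) '' (H : Set P))

theorem sq_mem_sqSub {H : Subgroup P} {x : P} (hx : x ∈ H) : x ^ 2 ∈ sqSub H :=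
  subset_closure ⟨x, hx, rfl⟩

theorem sqSub_le (H : Subgroup P) : sqSub H ≤ H :=
  (closure_le _).2 (by rintro _ ⟨x, hx, rfl⟩; exact pow_mem hx 2)

/-- Commutators of elements of `H` are products of squares. -/
theorem comm_mem_sqSub {H : Subgroup P} {a b : P} (ha : a ∈ H) (hb : b ∈ H) :
    a⁻¹ * b⁻¹ * a * b ∈ sqSub H := by
  have e : a⁻¹ * b⁻¹ * a * b = a⁻¹ ^ 2 * (a * b⁻¹) ^ 2 * b ^ 2 := by
    simp only [pow_two]; group
  rw [e]
  exact mul_mem (mul_mem (sq_mem_sqSub (inv_mem ha)) (sq_mem_sqSub (mul_mem ha (inv_mem hb))))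
    (sq_mem_sqSub hb)

/-- Sectional 2-rank criterion. -/
theorem sectional_of_sq [Finite P] (k : ℕ)
    (h : ∀ H : Subgroup P, Nat.card H ≤ 2 ^ k * Nat.card (sqSub H)) :
    Cfsg.SectionalPRankLE 2 k P := by
  intro H N hN A hAc hA2
  let X : Subgroup H := A.comap (QuotientGroup.mk' N)
  let H' : Subgroup P := X.map H.subtype
  have hNX : N ≤ X := fun x hx => by
    show QuotientGroup.mk' N x ∈ A
    rw [QuotientGroup.mk'_apply, (QuotientGroup.eq_one_iff x).2 hx]
    exact one_mem A
  have hsq : sqSub H' ≤ N.map H.subtype := by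
    refine (closure_le _).2 ?_
    rintro _ ⟨y, ⟨x, hx, rfl⟩, rfl⟩
    refine ⟨x ^ 2, ?_, by simp⟩
    have := hA2 _ hx
    rw [← map_pow, QuotientGroup.mk'_apply] at this
    exact (QuotientGroup.eq_one_iff (x ^ 2)).1 this
  have hcX : Nat.card H' = Nat.card N * Nat.card A := by
    rw [Subgroup.card_map_of_injective H.subtype_injective]
    let f : X →* A := ((QuotientGroup.mk' N).comp X.subtype).codRestrict A fun x => x.2
    have hf : Function.Surjective f := by
      rintro ⟨y, hy⟩
      obtain ⟨x, rfl⟩ := QuotientGroup.mk'_surjective N y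
      exact ⟨⟨x, hy⟩, rfl⟩
    have hker : f.ker = N.subgroupOf X := by
      ext x
      rw [MonoidHom.mem_ker, mem_subgroupOf]
      exact Subtype.ext_iff.trans (QuotientGroup.eq_one_iff (x : H))
    rw [card_eq_card_quotient_mul_card_subgroup f.ker,
      Nat.card_congr (QuotientGroup.quotientKerEquivOfSurjective f hf).toEquiv, hker,
      Nat.card_congr (subgroupOfEquivOfLe hNX).toEquiv, mul_comm]
  have hcs : Nat.card (sqSub H') ≤ Nat.card N :=
    le_trans (Subgroup.card_le_of_le hsq) (le_of_eq (Subgroup.card_map_of_injective H.subtype_injective))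
  have := h H'
  rw [hcX] at this
  have h2 : Nat.card N * Nat.card A ≤ Nat.card N * 2 ^ k := by
    refine this.trans ?_
    rw [mul_comm (Nat.card N)]
    exact Nat.mul_le_mul_left _ hcs
  exact Nat.le_of_mul_le_mul_left h2 Nat.card_pos

/-- Splitting the order along a homomorphism. -/
theorem card_split {Q : Type*} [Group Q] (f : P →* Q) (H : Subgroup P) :
    Nat.card H = Nat.card (H ⊓ f.ker : Subgroup P) * Nat.card (H.map f) := by
  have hker : (f.comp H.subtype).ker = (H ⊓ f.ker).subgroupOf H := by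
    ext x; simp [mem_subgroupOf]
  have hr : (f.comp H.subtype).range = H.map f := by
    rw [MonoidHom.range_comp, Subgroup.range_subtype]
  rw [card_eq_card_quotient_mul_card_subgroup (f.comp H.subtype).ker,
    Nat.card_congr (QuotientGroup.quotientKerEquivRange (f.comp H.subtype)).toEquiv, hr, hker,
    Nat.card_congr (subgroupOfEquivOfLe inf_le_left).toEquiv, mul_comm]

/-- In a group whose elements `w` with `w ^ 4 = 1` commute with everything relevant,
equal squares differ by an involution. -/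
theorem sq_eq_sq (C : Subgroup P) (hC : IsPGroup 2 P)
    (hcen : ∀ w ∈ C, w ^ 4 = 1 → ∀ c ∈ C, w * c = c * w)
    {x y : P} (hx : x ∈ C) (hy : y ∈ C) (h : x ^ 2 = y ^ 2) : (x⁻¹ * y) ^ 2 = 1 := by
  set a := x⁻¹ * y with ha
  have haC : a ∈ C := mul_mem (inv_mem hx) hy
  have h' : x * x = y * y := by simpa [pow_two] using h
  have hconj : x⁻¹ * a * x = a⁻¹ := by
    have e1 : x⁻¹ * a * x = (x * x)⁻¹ * y * x := by rw [ha]; group
    rw [e1, h', ha]; group
  have hconjp : ∀ i : ℕ, x⁻¹ * a ^ i * x = (a ^ i)⁻¹ := fun i => by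
    have hp := conj_pow (i := i) (a := x⁻¹) (b := a)
    rw [inv_inv, hconj, inv_pow] at hp
    exact hp.symm
  obtain ⟨k, hk⟩ := hC a
  induction k with
  | zero => rw [pow_zero, pow_one] at hk; rw [hk, one_pow]
  | succ n ih =>
    rcases n with _ | n
    · simpa using hk
    · refine ih ?_
      have h4 : (a ^ 2 ^ n) ^ 4 = 1 := by
        rw [← pow_mul]
        have : 2 ^ n * 4 = 2 ^ (n + 1 + 1) := by ring
        rw [this]; exact hk
      have hc := hcen _ (pow_mem haC _) h4 x hx
      have hh : a ^ 2 ^ n = (a ^ 2 ^ n)⁻¹ := by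
        rw [← hconjp]
        rw [mul_assoc, hc, inv_mul_cancel_left]
      have : (a ^ 2 ^ n) ^ 2 = 1 := by
        rw [pow_two]
        nth_rewrite 2 [hh]
        exact mul_inv_cancel _
      rw [← pow_mul, ← pow_succ] at this
      exact this

/-- Counting by squares: if all squares of `D` lie in `G` and are squares in the strong sense,
`|D| ≤ |V|·|G|`, strictly for `G` with an element which is no square. -/
theorem card_le_mul [Finite P] (D V : Subgroup P) (S : Set P)
    (hfib : ∀ x ∈ D, ∀ y ∈ D, x ^ 2 = y ^ 2 → x⁻¹ * y ∈ V) (hS : ∀ x ∈ D, x ^ 2 ∈ S) :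
    Nat.card D ≤ Nat.card S * Nat.card V := by
  classical
  have hsel : ∀ s : S, ∃ d : P, ∀ x ∈ D, x ^ 2 = (s : P) → d⁻¹ * x ∈ V := by
    intro s
    by_cases hs : ∃ x ∈ D, x ^ 2 = (s : P)
    · obtain ⟨d, hd, hd2⟩ := hs
      exact ⟨d, fun x hx hx2 => hfib d hd x hx (hd2.trans hx2.symm)⟩
    · exact ⟨1, fun x hx hx2 => absurd ⟨x, hx, hx2⟩ hs⟩
  choose d hd using hsel
  let g : D → S × V := fun x =>
    (⟨(x : P) ^ 2, hS x x.2⟩, ⟨(d ⟨(x : P) ^ 2, hS x x.2⟩)⁻¹ * x, hd _ x x.2 rfl⟩)
  have hg : Function.Injective g := by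
    intro x y e
    simp only [g, Prod.mk.injEq, Subtype.mk.injEq] at e
    obtain ⟨e1, e2⟩ := e
    have e3 : d ⟨(x : P) ^ 2, hS x x.2⟩ = d ⟨(y : P) ^ 2, hS y y.2⟩ := by congr 1; exact Subtype.ext e1
    rw [e3] at e2
    exact Subtype.ext (mul_left_cancel e2)
  have := Nat.card_le_card_of_injective g hg
  rwa [Nat.card_prod] at this

theorem card_pow_two [Finite P] (hP : IsPGroup 2 P) (H : Subgroup P) :
    ∃ n, Nat.card H = 2 ^ n := by
  haveI : Fact (Nat.Prime 2) := ⟨Nat.prime_two⟩
  exact IsPGroup.iff_card.1 (hP.to_subgroup H)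

end Cfsg.Agent.H81.MacW
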