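import Cfsg.Agent.H81.MacW.Frat
import Cfsg.Agent.H24.MaxExponent

/-!
A maximal normal abelian subgroup `E` of exponent 4 in a 2-group of normal rank two, and the counting
of `|H : ⟨squares⟩|` along `C(E)` and the centraliser `R` of the involutions of `E`.
-/

set_option autoImplicit false
set_option linter.unusedSectionVars false

namespace Cfsg.Agent.H81.MacW

open Subgroup

variable {P : Type*} [Group P] [Finite P]

/-- Every normal elementary abelian subgroup has order at most 4. -/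
def NormalRankTwo (P : Type*) [Group P] : Prop :=
  ∀ A : Subgroup P, A.Normal → IsMulCommutative A → (∀ a ∈ A, a ^ 2 = 1) → Nat.card A ≤ 4

/-- `r e r⁻¹ e⁻¹`. -/
def kc (e r : P) : P := r * e * r⁻¹ * e⁻¹

variable (P) in
/-- The data attached to the subgroup `E`. -/
structure Ctx where
  hP : IsPGroup 2 P
  hrk : NormalRankTwo P
  E : Subgroup P
  hEn : E.Normal
  hEc : ∀ a ∈ E, ∀ b ∈ E, a * b = b * a
  hE4 : ∀ e ∈ E, e ^ 4 = 1
  hC4 : ∀ w ∈ centralizer (E : Set P), w ^ 4 = 1 → w ∈ E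

theorem exists_ctx (hP : IsPGroup 2 P) (h : NormalRankTwo P) : Nonempty (Ctx P) := by
  haveI : Fact (Nat.Prime 2) := ⟨Nat.prime_two⟩
  obtain ⟨A, hAn, hAc, hAe, -, hmax⟩ := Cfsg.Agent.H24.exists_maximal_normal_exponent (G := P) 4
    (A₀ := ⊥) inferInstance
    ⟨⟨fun a b => Subsingleton.elim _ _⟩⟩
    (fun a ha => by rw [mem_bot.1 ha, one_pow])
  haveI := hAn
  exact ⟨⟨hP, h, A, hAn, fun a ha b hb => congrArg Subtype.val (hAc.is_comm.comm ⟨a, ha⟩ ⟨b, hb⟩), hAe,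
    fun w hw hw4 => Cfsg.Agent.H24.mem_of_maximal_normal_exponent (p := 2) hP 2 (by norm_num) hAc
      (by simpa using hAe) (by simpa using hmax) hw (by simpa using hw4)⟩⟩

namespace Ctx

variable (c : Ctx P)

/-- The centraliser of `E`. -/
abbrev C : Subgroup P := centralizer (c.E : Set P)

theorem mem_C {w : P} : w ∈ c.C ↔ ∀ e ∈ c.E, e * w = w * e := mem_centralizer_iff

theorem hE_C : c.E ≤ c.C := fun a ha => c.mem_C.2 fun b hb => c.hEc b hb a ha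

/-- The involutions of `E`. -/
def V : Subgroup P where
  carrier := {v | v ∈ c.E ∧ v ^ 2 = 1}
  one_mem' := ⟨one_mem _, one_pow _⟩
  mul_mem' := fun {a b} ha hb => ⟨mul_mem ha.1 hb.1, by
    rw [(Commute.mul_pow (c.hEc a ha.1 b hb.1) 2), ha.2, hb.2, one_mul]⟩
  inv_mem' := fun {a} ha => ⟨inv_mem ha.1, by rw [inv_pow, ha.2, inv_one]⟩

theorem mem_V {v : P} : v ∈ c.V ↔ v ∈ c.E ∧ v ^ 2 = 1 := Iff.rfl

theorem V_le : c.V ≤ c.E := fun _ hv => hv.1

theorem sq_mem_V {e : P} (he : e ∈ c.E) : e ^ 2 ∈ c.V :=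
  ⟨pow_mem he 2, by rw [← pow_mul]; exact c.hE4 e he⟩

theorem V_inv {v : P} (hv : v ∈ c.V) : v⁻¹ = v :=
  inv_eq_of_mul_eq_one_right (by rw [← pow_two]; exact hv.2)

theorem V_comm {a b : P} (ha : a ∈ c.V) (hb : b ∈ c.V) : a * b = b * a := c.hEc a ha.1 b hb.1

theorem conj_E (x : P) {e : P} (he : e ∈ c.E) : x * e * x⁻¹ ∈ c.E := c.hEn.conj_mem e he x

theorem conj_V (x : P) {v : P} (hv : v ∈ c.V) : x * v * x⁻¹ ∈ c.V :=
  ⟨c.conj_E x hv.1, by rw [conj_pow, hv.2, mul_one, mul_inv_cancel]⟩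

theorem card_V : Nat.card c.V ≤ 4 :=
  c.hrk c.V ⟨fun v hv x => c.conj_V x hv⟩
    ⟨⟨fun a b => Subtype.ext (c.V_comm a.2 b.2)⟩⟩ fun _ ha => ha.2

theorem conj_C (x : P) {w : P} (hw : w ∈ c.C) : x * w * x⁻¹ ∈ c.C := by
  refine c.mem_C.2 fun e he => ?_
  have h' := c.mem_C.1 hw _ (c.conj_E x⁻¹ he)
  rw [inv_inv] at h'
  calc e * (x * w * x⁻¹) = x * (x⁻¹ * e * x * w) * x⁻¹ := by group
    _ = x * (w * (x⁻¹ * e * x)) * x⁻¹ := by rw [h']
    _ = x * w * x⁻¹ * e := by group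

instance C_normal : c.C.Normal := ⟨fun _ hw x => c.conj_C x hw⟩

theorem hcen : ∀ w ∈ c.C, w ^ 4 = 1 → ∀ d ∈ c.C, w * d = d * w :=
  fun w hw h4 _ hd => c.mem_C.1 hd w (c.hC4 w hw h4)

/-- The fibres of squaring on `C` are cosets of subsets of `V`. -/
theorem sq_fibre {x y : P} (hx : x ∈ c.C) (hy : y ∈ c.C) (h : x ^ 2 = y ^ 2) : x⁻¹ * y ∈ c.V := by
  have h2 := sq_eq_sq c.C c.hP c.hcen hx hy h
  exact ⟨c.hC4 _ (mul_mem (inv_mem hx) hy) (by rw [show (4 : ℕ) = 2 * 2 from rfl, pow_mul, h2, one_pow]),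
    h2⟩

theorem card_D {D G : Subgroup P} (hD : D ≤ c.C) (hG : ∀ x ∈ D, x ^ 2 ∈ G) :
    Nat.card D ≤ 4 * Nat.card G := by
  have := card_le_mul D c.V (G : Set P) (fun x hx y hy h => c.sq_fibre (hD hx) (hD hy) h) hG
  calc Nat.card D ≤ Nat.card G * Nat.card c.V := this
    _ ≤ Nat.card G * 4 := Nat.mul_le_mul_left _ c.card_V
    _ = 4 * Nat.card G := mul_comm _ _

theorem card_D_strict {D G : Subgroup P} (hD : D ≤ c.C) (hG : ∀ x ∈ D, x ^ 2 ∈ G) {z : P} (hz : z ∈ G)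
    (hns : ∀ x ∈ c.C, x ^ 2 ≠ z) : Nat.card D ≤ 2 * Nat.card G := by
  have := card_le_mul D c.V ((G : Set P) \ {z}) (fun x hx y hy h => c.sq_fibre (hD hx) (hD hy) h)
    (fun x hx => ⟨hG x hx, hns x (hD hx)⟩)
  have hlt : Nat.card ((G : Set P) \ {z} : Set P) < Nat.card G := by
    rw [show Nat.card G = Nat.card (G : Set P) from rfl, Nat.card_coe_set_eq, Nat.card_coe_set_eq]
    exact Set.ncard_sdiff_singleton_lt_of_mem hz
  have h4 := Nat.mul_le_mul_left (Nat.card ((G : Set P) \ {z} : Set P)) c.card_V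
  obtain ⟨a, ha⟩ := card_pow_two c.hP D
  obtain ⟨b, hb⟩ := card_pow_two c.hP G
  have hlt' : Nat.card D < 4 * Nat.card G := by omega
  rw [ha, hb] at hlt' ⊢
  have : a < b + 2 := (Nat.pow_lt_pow_iff_right (by norm_num : 1 < 2)).1 (by rw [pow_add]; omega)
  rw [← pow_succ']
  exact Nat.pow_le_pow_right (by norm_num) (by omega)

/-- The centraliser of `V`. -/
abbrev R : Subgroup P := centralizer (c.V : Set P)

theorem mem_R {r : P} : r ∈ c.R ↔ ∀ v ∈ c.V, v * r = r * v := mem_centralizer_iff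

theorem R_fix {r : P} (hr : r ∈ c.R) {v : P} (hv : v ∈ c.V) : r * v * r⁻¹ = v := by
  rw [← c.mem_R.1 hr v hv, mul_inv_cancel_right]

theorem C_le_R : c.C ≤ c.R := fun _ hw => c.mem_R.2 fun v hv => c.mem_C.1 hw v hv.1

theorem conj_R (x : P) {r : P} (hr : r ∈ c.R) : x * r * x⁻¹ ∈ c.R := by
  refine c.mem_R.2 fun v hv => ?_
  have h' := c.mem_R.1 hr _ (c.conj_V x⁻¹ hv)
  rw [inv_inv] at h'
  calc v * (x * r * x⁻¹) = x * (x⁻¹ * v * x * r) * x⁻¹ := by group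
    _ = x * (r * (x⁻¹ * v * x)) * x⁻¹ := by rw [h']
    _ = x * r * x⁻¹ * v := by group

theorem kc_mem {r e : P} (hr : r ∈ c.R) (he : e ∈ c.E) : kc e r ∈ c.V := by
  refine ⟨mul_mem (c.conj_E r he) (inv_mem he), ?_⟩
  rw [kc, Commute.mul_pow (c.hEc _ (c.conj_E r he) _ (inv_mem he)), conj_pow,
    c.R_fix hr (c.sq_mem_V he), inv_pow, mul_inv_cancel]

theorem kc_mul_left (r : P) {e f : P} (he : e ∈ c.E) (hf : f ∈ c.E) :
    kc (e * f) r = kc e r * kc f r := by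
  have h1 : kc e r ∈ c.E := mul_mem (c.conj_E r he) (inv_mem he)
  have h2 := c.hEc _ (c.conj_E r hf) _ (inv_mem he)
  calc kc (e * f) r = r * e * r⁻¹ * (r * f * r⁻¹ * (f⁻¹ * e⁻¹)) := by simp only [kc]; group
    _ = r * e * r⁻¹ * (r * f * r⁻¹ * (e⁻¹ * f⁻¹)) := by
      rw [c.hEc _ (inv_mem hf) _ (inv_mem he)]
    _ = r * e * r⁻¹ * (r * f * r⁻¹ * e⁻¹ * f⁻¹) := by simp only [mul_assoc]
    _ = r * e * r⁻¹ * (e⁻¹ * (r * f * r⁻¹) * f⁻¹) := by rw [h2]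
    _ = kc e r * kc f r := by simp only [kc, mul_assoc]

theorem kc_V {r v : P} (hr : r ∈ c.R) (hv : v ∈ c.V) : kc v r = 1 := by
  rw [kc, c.R_fix hr hv, mul_inv_cancel]

theorem kc_mul_right {r s e : P} (hr : r ∈ c.R) (hs : s ∈ c.R) (he : e ∈ c.E) :
    kc e (r * s) = kc e r * kc e s := by
  have e1 : kc e (r * s) = r * kc e s * r⁻¹ * kc e r := by simp only [kc]; group
  rw [e1, c.R_fix hr (c.kc_mem hs he), c.V_comm (c.kc_mem hs he) (c.kc_mem hr he)]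

theorem kc_conj (x r e : P) : kc e (x * r * x⁻¹) = x * kc (x⁻¹ * e * x) r * x⁻¹ := by
  simp only [kc]; group

theorem mem_C_of_kc {r : P} (h : ∀ e ∈ c.E, kc e r = 1) : r ∈ c.C := c.mem_C.2 fun e he => by
  have h' := h e he
  rw [kc, mul_inv_eq_one, mul_inv_eq_iff_eq_mul] at h'
  exact h'.symm

theorem kc_of_mem_C {w e : P} (hw : w ∈ c.C) (he : e ∈ c.E) : kc e w = 1 := by
  rw [kc, ← c.mem_C.1 hw e he, mul_inv_cancel_right, mul_inv_cancel]

theorem R_comm {r s : P} (hr : r ∈ c.R) (hs : s ∈ c.R) : (r * s)⁻¹ * (s * r) ∈ c.C := by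
  refine c.mem_C_of_kc fun e he => ?_
  have hrs := mul_mem hr hs
  have h1 := c.kc_mul_right hrs (mul_mem (inv_mem hrs) (mul_mem hs hr)) he
  rw [mul_inv_cancel_left, c.kc_mul_right hr hs he, c.kc_mul_right hs hr he,
    c.V_comm (c.kc_mem hs he) (c.kc_mem hr he)] at h1
  exact mul_eq_left.1 h1.symm

theorem R_sq {r : P} (hr : r ∈ c.R) : r ^ 2 ∈ c.C := by
  refine c.mem_C_of_kc fun e he => ?_
  rw [pow_two, c.kc_mul_right hr hr he, ← pow_two]
  exact (c.kc_mem hr he).2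

/-- The quotient map by `C`. -/
def φ : P →* P ⧸ c.C := QuotientGroup.mk' c.C

theorem φ_eq_one {x : P} : c.φ x = 1 ↔ x ∈ c.C := QuotientGroup.eq_one_iff x

theorem ker_φ : c.φ.ker = c.C := QuotientGroup.ker_mk' c.C

theorem φ_comm {r s : P} (hr : r ∈ c.R) (hs : s ∈ c.R) : c.φ r * c.φ s = c.φ s * c.φ r := by
  rw [← map_mul, ← map_mul]
  exact QuotientGroup.eq.2 (c.R_comm hr hs)

theorem φ_sq {r : P} (hr : r ∈ c.R) : c.φ r * c.φ r = 1 := by
  rw [← map_mul, ← pow_two]; exact c.φ_eq_one.2 (c.R_sq hr)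

/-- Combining the bounds below and above `C`. -/
theorem bound (H : Subgroup P) (a b : ℕ) (hab : a * b ≤ 16)
    (h1 : Nat.card (H ⊓ c.C : Subgroup P) ≤ a * Nat.card (sqSub H ⊓ c.C : Subgroup P))
    (h2 : Nat.card (H.map c.φ) ≤ b * Nat.card ((sqSub H).map c.φ)) :
    Nat.card H ≤ 2 ^ 4 * Nat.card (sqSub H) := by
  rw [card_split c.φ H, card_split c.φ (sqSub H), c.ker_φ]
  refine (Nat.mul_le_mul h1 h2).trans ?_
  calc a * Nat.card (sqSub H ⊓ c.C : Subgroup P) * (b * Nat.card ((sqSub H).map c.φ))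
      = a * b * (Nat.card (sqSub H ⊓ c.C : Subgroup P) * Nat.card ((sqSub H).map c.φ)) := by ring
    _ ≤ 2 ^ 4 * _ := Nat.mul_le_mul_right _ hab

theorem D_sq (H : Subgroup P) : ∀ x ∈ H ⊓ c.C, x ^ 2 ∈ sqSub H ⊓ c.C :=
  fun _ hx => ⟨sq_mem_sqSub hx.1, pow_mem hx.2 2⟩

/-- An image bound from a separating function. -/
theorem card_map_le {A : Type*} [Finite A] {W : Subgroup P} (f : P → A) (S : Set A)
    (hS : ∀ r ∈ W, f r ∈ S) (hf : ∀ r ∈ W, ∀ s ∈ W, f r = f s → r⁻¹ * s ∈ c.C) :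
    Nat.card (W.map c.φ) ≤ Nat.card S := by
  have hsel : ∀ q : W.map c.φ, ∃ r, r ∈ W ∧ c.φ r = q := fun q => q.2
  choose r hrW hrq using hsel
  refine Nat.card_le_card_of_injective (fun q => (⟨f (r q), hS _ (hrW q)⟩ : S)) fun q q' e => ?_
  have e' := hf _ (hrW q) _ (hrW q') (congrArg Subtype.val e)
  exact Subtype.ext (by rw [← hrq q, ← hrq q']; exact QuotientGroup.eq.2 e')

/-- The bound above `C` for a subgroup outside `R`: twice the number of fixed points. -/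
theorem card_map_out {A : Type*} [Finite A] (H : Subgroup P)
    (hidx : ∀ x y : P, x ∉ c.R → y ∉ c.R → x⁻¹ * y ∈ c.R) {h : P} (hh : h ∈ H) (hhR : h ∉ c.R)
    (f : P → A) (S : Set A)
    (hf : ∀ r ∈ H ⊓ c.R, ∀ s ∈ H ⊓ c.R, f r = f s → r⁻¹ * s ∈ c.C)
    (hS : ∀ r ∈ H ⊓ c.R, (r⁻¹ * (h * r * h⁻¹)) ∈ c.C → f r ∈ S) :
    Nat.card (H.map c.φ) ≤ 2 * Nat.card S * Nat.card ((sqSub H).map c.φ) := by
  classical
  -- two cosets
  have h2 : Nat.card (H.map c.φ) ≤ 2 * Nat.card ((H ⊓ c.R).map c.φ) := by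
    let g : Fin 2 × (H ⊓ c.R).map c.φ → H.map c.φ := fun q =>
      if q.1 = 0 then ⟨q.2, by obtain ⟨r, hr, e⟩ := q.2.2; exact ⟨r, hr.1, e⟩⟩
      else ⟨c.φ h * q.2, by obtain ⟨r, hr, e⟩ := q.2.2; exact ⟨h * r, mul_mem hh hr.1, by rw [map_mul, e]⟩⟩
    have hg : Function.Surjective g := by
      rintro ⟨q, x, hx, rfl⟩
      by_cases hxR : x ∈ c.R
      · exact ⟨((0 : Fin 2), ⟨c.φ x, x, ⟨hx, hxR⟩, rfl⟩), rfl⟩
      · exact ⟨((1 : Fin 2), ⟨c.φ (h⁻¹ * x), h⁻¹ * x, ⟨H.mul_mem (H.inv_mem hh) hx, hidx h x hhR hxR⟩, rfl⟩),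
          Subtype.ext (by simp [g])⟩
    have := Nat.card_le_card_of_surjective g hg
    rwa [Nat.card_prod, Nat.card_fin] at this
  set W : Subgroup P := H ⊓ c.R with hW
  have hmemR : ∀ w : W, h * (w : P) * h⁻¹ ∈ c.R := fun w => c.conj_R h w.2.2
  let ψ : W →* P ⧸ c.C :=
    { toFun := fun w => c.φ (h * (w : P) * h⁻¹) * c.φ w
      map_one' := by simp
      map_mul' := fun u v => by
        have e : h * ((u * v : W) : P) * h⁻¹ = h * (u : P) * h⁻¹ * (h * (v : P) * h⁻¹) := by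
          simp only [Subgroup.coe_mul]; group
        rw [e, Subgroup.coe_mul, map_mul c.φ (h * (u : P) * h⁻¹), map_mul c.φ (u : P)]
        have e2 := c.φ_comm (hmemR v) u.2.2
        calc c.φ (h * (u : P) * h⁻¹) * c.φ (h * (v : P) * h⁻¹) * (c.φ u * c.φ v)
            = c.φ (h * (u : P) * h⁻¹) * (c.φ (h * (v : P) * h⁻¹) * c.φ u) * c.φ v := by
              simp only [mul_assoc]
          _ = c.φ (h * (u : P) * h⁻¹) * (c.φ u * c.φ (h * (v : P) * h⁻¹)) * c.φ v := by rw [e2]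
          _ = _ := by simp only [mul_assoc] }
  have hrange : ψ.range ≤ (sqSub H).map c.φ := by
    rintro _ ⟨w, rfl⟩
    refine ⟨h⁻¹⁻¹ * (w : P)⁻¹⁻¹ * h⁻¹ * (w : P)⁻¹ * (w : P) ^ 2,
      mul_mem (comm_mem_sqSub (inv_mem hh) (inv_mem w.2.1)) (sq_mem_sqSub w.2.1), ?_⟩
    show _ = c.φ (h * (w : P) * h⁻¹) * c.φ w
    rw [← map_mul]
    congr 1
    simp only [inv_inv, pow_two]; group
  set K : Subgroup P := ψ.ker.map W.subtype with hK
  have hKW : K ≤ W := map_subtype_le _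
  have hKS : ∀ r ∈ K, f r ∈ S := by
    rintro _ ⟨w, hw, rfl⟩
    refine hS _ w.2 ?_
    have hw' : c.φ (h * (w : P) * h⁻¹) * c.φ w = 1 := hw
    refine c.φ_eq_one.1 ?_
    show c.φ ((w : P)⁻¹ * (h * (w : P) * h⁻¹)) = 1
    rw [map_mul, map_inv, inv_mul_eq_one]
    exact mul_right_cancel ((c.φ_sq w.2.2).trans hw'.symm)
  have hcK := c.card_map_le f S hKS (fun r hr s hs => hf r (hKW hr) s (hKW hs))
  have e1 : Nat.card W = Nat.card K * Nat.card ψ.range := by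
    rw [card_map_of_injective W.subtype_injective, card_eq_card_quotient_mul_card_subgroup ψ.ker,
      Nat.card_congr (QuotientGroup.quotientKerEquivRange ψ).toEquiv, mul_comm]
  have hWC : W ⊓ c.φ.ker = K ⊓ c.φ.ker := by
    refine le_antisymm (le_inf ?_ inf_le_right) (inf_le_inf_right _ hKW)
    rintro x ⟨hxW, hxC⟩
    refine ⟨⟨x, hxW⟩, ?_, rfl⟩
    have hxC' : x ∈ c.C := c.φ_eq_one.1 hxC
    show c.φ (h * x * h⁻¹) * c.φ x = 1
    rw [c.φ_eq_one.2 hxC', c.φ_eq_one.2 (c.conj_C h hxC'), mul_one]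
  have e2 := card_split c.φ W
  have e3 := card_split c.φ K
  rw [e1, e3, hWC, mul_assoc] at e2
  have e4 := Nat.eq_of_mul_eq_mul_left Nat.card_pos e2
  calc Nat.card (H.map c.φ) ≤ 2 * Nat.card (W.map c.φ) := h2
    _ = 2 * (Nat.card (K.map c.φ) * Nat.card ψ.range) := by rw [e4]
    _ ≤ 2 * (Nat.card S * Nat.card ((sqSub H).map c.φ)) :=
      Nat.mul_le_mul_left _ (Nat.mul_le_mul hcK (card_le_of_le hrange))
    _ = _ := (mul_assoc _ _ _).symm

end Ctx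

end Cfsg.Agent.H81.MacW
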