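import Cfsg.Agent.H81.MacW.Setup
import Cfsg.Agent.H24.PGroupBasic

/-!
The centraliser of `V` has index at most two; the case `|E| ≤ 8`.
-/

set_option autoImplicit false
set_option linter.unusedSectionVars false

namespace Cfsg.Agent.H81.MacW.Ctx

open Subgroup

variable {P : Type*} [Group P] [Finite P] (c : Ctx P)

/-- A basis of `V` adapted to the action of `P`, when `|V| = 4`. -/
structure Basis where
  e1 : P
  b : P
  he1 : e1 ∈ c.V
  hb : b ∈ c.V
  he1ne : e1 ≠ 1
  hbne : b ≠ 1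
  hne : e1 ≠ b
  hfix : ∀ x : P, x * e1 * x⁻¹ = e1
  hall : ∀ v ∈ c.V, v = 1 ∨ v = e1 ∨ v = b ∨ v = e1 * b

theorem exists_basis (h4 : Nat.card c.V = 4) : Nonempty (Basis c) := by
  classical
  haveI : Fact (Nat.Prime 2) := ⟨Nat.prime_two⟩
  haveI hVn : c.V.Normal := ⟨fun v hv x => c.conj_V x hv⟩
  have hne : (⊥ : Subgroup P) ≠ c.V := fun h => by rw [← h, Subgroup.card_bot] at h4; omega
  obtain ⟨K, -, -, hKV, hKcard, hcomm⟩ :=
    Cfsg.Agent.H24.exists_normal_between (p := 2) c.hP bot_le hne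
  rw [Subgroup.card_bot, mul_one] at hKcard
  obtain ⟨e1, he1, he1ne⟩ : ∃ e ∈ K, e ≠ 1 := by
    by_contra hh
    push Not at hh
    have : K = ⊥ := (Subgroup.eq_bot_iff_forall K).2 hh
    rw [this, Subgroup.card_bot] at hKcard
    omega
  obtain ⟨b, hb, hbK⟩ : ∃ b ∈ c.V, b ∉ K := by
    by_contra hh
    push Not at hh
    have := Subgroup.card_le_of_le (show c.V ≤ K from hh)
    omega
  have hne' : e1 ≠ b := fun h => hbK (h ▸ he1)
  have hbne : b ≠ 1 := fun h => hbK (h ▸ one_mem K)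
  refine ⟨⟨e1, b, hKV he1, hb, he1ne, hbne, hne', fun x => ?_, fun v hv => ?_⟩⟩
  · have h := hcomm (Subgroup.commutator_mem_commutator (Subgroup.mem_top x) he1)
    rwa [Subgroup.mem_bot, commutatorElement_def, mul_inv_eq_one] at h
  · have hb2 : b * b = 1 := by rw [← pow_two]; exact hb.2
    have he2 : e1 * e1 = 1 := by rw [← pow_two]; exact (hKV he1).2
    let l : Fin 4 → c.V := ![⟨1, one_mem _⟩, ⟨e1, hKV he1⟩, ⟨b, hb⟩, ⟨e1 * b, mul_mem (hKV he1) hb⟩]
    have n3 : e1 * b ≠ 1 := fun h => hne' (mul_left_cancel (h.trans he2.symm)).symm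
    have n4 : e1 * b ≠ e1 := fun h => hbne (mul_eq_left.1 h)
    have n5 : e1 * b ≠ b := fun h => he1ne (mul_eq_right.1 h)
    have hl : Function.Injective l := by
      intro i j h
      fin_cases i <;> fin_cases j <;>
        simp_all [l, Subtype.ext_iff, eq_comm]
    have hs := (Nat.bijective_iff_injective_and_card l).2 ⟨hl, by rw [h4, Nat.card_fin]⟩
    obtain ⟨i, hi⟩ := hs.2 ⟨v, hv⟩
    have hi' := congrArg Subtype.val hi
    fin_cases i <;> simp [l] at hi' <;> simp [hi']

variable {c}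

namespace Basis

theorem conj_b (B : Basis c) {x : P} (hx : x ∉ c.R) : x * B.b * x⁻¹ = B.e1 * B.b := by
  have hcases := B.hall _ (c.conj_V x B.hb)
  have hnb : x * B.b * x⁻¹ ≠ B.b := by
    intro h
    refine hx (c.mem_R.2 fun v hv => ?_)
    have h1 : x * B.e1 = B.e1 * x := mul_inv_eq_iff_eq_mul.1 (B.hfix x)
    have h2 : x * B.b = B.b * x := mul_inv_eq_iff_eq_mul.1 h
    rcases B.hall v hv with rfl | rfl | rfl | rfl
    · simp
    · exact h1.symm
    · exact h2.symm
    · rw [mul_assoc, ← h2, ← mul_assoc, ← h1, mul_assoc]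
  rcases hcases with h | h | h | h
  · rw [mul_inv_eq_one, mul_eq_left] at h
    exact absurd h B.hbne
  · rw [← B.hfix x] at h
    exact absurd (mul_left_cancel (mul_right_cancel h)) B.hne.symm
  · exact absurd h hnb
  · exact h

/-- Elements outside `R` fix only `e1` in `V`. -/
theorem fixed (B : Basis c) {x v : P} (hx : x ∉ c.R) (hv : v ∈ c.V) (h : x * v * x⁻¹ = v) :
    v = 1 ∨ v = B.e1 := by
  rcases B.hall v hv with e | e | e | e
  · exact Or.inl e
  · exact Or.inr e
  · rw [e, B.conj_b hx, mul_eq_right] at h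
    exact absurd h B.he1ne
  · rw [e, show x * (B.e1 * B.b) * x⁻¹ = x * B.e1 * x⁻¹ * (x * B.b * x⁻¹) by group, B.hfix,
      B.conj_b hx, mul_left_cancel_iff, mul_eq_right] at h
    exact absurd h B.he1ne

end Basis

variable (c)

/-- `R` has index at most two. -/
theorem R_index (x y : P) (hx : x ∉ c.R) (hy : y ∉ c.R) : x⁻¹ * y ∈ c.R := by
  have h4 := c.card_V
  by_cases hV : Nat.card c.V = 4
  · obtain ⟨B⟩ := c.exists_basis hV
    refine c.mem_R.2 fun v hv => ?_
    have hc : ∀ w ∈ c.V, x * w * x⁻¹ = y * w * y⁻¹ := by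
      intro w hw
      rcases B.hall w hw with e | e | e | e <;> rw [e]
      · simp
      · rw [B.hfix, B.hfix]
      · rw [B.conj_b hx, B.conj_b hy]
      · rw [show x * (B.e1 * B.b) * x⁻¹ = x * B.e1 * x⁻¹ * (x * B.b * x⁻¹) by group,
          show y * (B.e1 * B.b) * y⁻¹ = y * B.e1 * y⁻¹ * (y * B.b * y⁻¹) by group,
          B.hfix, B.hfix, B.conj_b hx, B.conj_b hy]
    calc v * (x⁻¹ * y) = x⁻¹ * (x * v * x⁻¹) * y := by group
      _ = x⁻¹ * (y * v * y⁻¹) * y := by rw [hc v hv]
      _ = x⁻¹ * y * v := by group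
  · have h2 : Nat.card c.V ≤ 2 := by
      obtain ⟨n, hn⟩ := card_pow_two c.hP c.V
      rw [hn] at h4 hV ⊢
      rcases n with _ | _ | _ | n
      · norm_num
      · norm_num
      · norm_num at hV
      · rw [pow_succ, pow_succ, pow_succ] at h4
        have := Nat.one_le_two_pow (n := n)
        omega
    exfalso
    refine hx (c.mem_R.2 fun v hv => ?_)
    by_cases h1 : v = 1
    · subst h1; simp
    by_cases h2' : x * v * x⁻¹ = v
    · exact (mul_inv_eq_iff_eq_mul.1 h2').symm
    exfalso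
    let g : Fin 3 → c.V := ![⟨1, one_mem _⟩, ⟨v, hv⟩, ⟨x * v * x⁻¹, c.conj_V x hv⟩]
    have hg : Function.Injective g := by
      have h3 : x * v * x⁻¹ ≠ 1 := fun h => h1 (by rwa [mul_inv_eq_one, mul_eq_left] at h)
      intro i j h
      fin_cases i <;> fin_cases j <;> simp_all [g, Subtype.ext_iff, eq_comm]
    have := Nat.card_le_card_of_injective g hg
    rw [Nat.card_fin] at this
    omega

/-- The case `|E| ≤ 8`. -/
theorem small (hE : Nat.card c.E ≤ 2 * Nat.card c.V) (H : Subgroup P) :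
    Nat.card H ≤ 2 ^ 4 * Nat.card (sqSub H) := by
  classical
  obtain ⟨e0, he0, hcov⟩ : ∃ e0 ∈ c.E, ∀ e ∈ c.E, e ∈ c.V ∨ e0⁻¹ * e ∈ c.V := by
    by_cases hall : ∀ e ∈ c.E, e ∈ c.V
    · exact ⟨1, one_mem _, fun e he => Or.inl (hall e he)⟩
    push Not at hall
    obtain ⟨e0, he0, he0V⟩ := hall
    refine ⟨e0, he0, fun e he => ?_⟩
    by_cases heV : e ∈ c.V
    · exact Or.inl heV
    refine Or.inr ?_
    have hidx : (c.V.subgroupOf c.E).index = 2 := by
      have h := Subgroup.index_mul_card (c.V.subgroupOf c.E)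
      rw [Nat.card_congr (subgroupOfEquivOfLe c.V_le).toEquiv] at h
      have hpos : 0 < Nat.card c.V := Nat.card_pos
      have hne : (c.V.subgroupOf c.E).index ≠ 1 := fun h1 => he0V (by
        have := (Subgroup.index_eq_one.1 h1) ▸ Subgroup.mem_top (⟨e0, he0⟩ : c.E)
        simpa [mem_subgroupOf] using this)
      have h0 : (c.V.subgroupOf c.E).index ≠ 0 := Subgroup.index_ne_zero_of_finite
      have : (c.V.subgroupOf c.E).index ≤ 2 := Nat.le_of_mul_le_mul_right (h ▸ hE) hpos
      omega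
    have := (Subgroup.mul_mem_iff_of_index_two hidx (a := (⟨e0, he0⟩ : c.E)⁻¹) (b := ⟨e, he⟩)).2
      (by simp [mem_subgroupOf, he0V, heV])
    simpa [mem_subgroupOf] using this
  have hsep : ∀ r ∈ c.R, ∀ s ∈ c.R, kc e0 r = kc e0 s → r⁻¹ * s ∈ c.C := by
    intro r hr s hs h
    have hrs : r⁻¹ * s ∈ c.R := mul_mem (inv_mem hr) hs
    refine c.mem_C_of_kc fun e he => ?_
    have key : kc e0 (r⁻¹ * s) = 1 := by
      have h' := c.kc_mul_right hr hrs he0
      rw [mul_inv_cancel_left, ← h] at h'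
      exact mul_eq_left.1 h'.symm
    rcases hcov e he with h1 | h1
    · exact c.kc_V hrs h1
    · rw [show e = e0 * (e0⁻¹ * e) by group, c.kc_mul_left _ he0 h1.1, key, c.kc_V hrs h1, one_mul]
  have hD := c.card_D (G := sqSub H ⊓ c.C) inf_le_right (c.D_sq H)
  by_cases hH : H ≤ c.R
  · refine c.bound H 4 4 le_rfl hD ?_
    calc Nat.card (H.map c.φ) ≤ Nat.card (c.V : Set P) :=
          c.card_map_le (kc e0) (c.V : Set P) (fun r hr => c.kc_mem (hH hr) he0)
            (fun r hr s hs => hsep r (hH hr) s (hH hs))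
      _ ≤ 4 * 1 := by simpa using c.card_V
      _ ≤ 4 * _ := Nat.mul_le_mul_left _ Nat.card_pos
  · obtain ⟨h, hh, hhR⟩ := SetLike.not_le_iff_exists.1 hH
    have hS : ∃ S : Set P, Nat.card S ≤ 2 ∧ ∀ v ∈ c.V, h * v * h⁻¹ = v → v ∈ S := by
      by_cases hV : Nat.card c.V = 4
      · obtain ⟨B⟩ := c.exists_basis hV
        refine ⟨{1, B.e1}, ?_, fun v hv e => by simpa using B.fixed hhR hv e⟩
        rw [Nat.card_coe_set_eq]
        exact (Set.ncard_insert_le _ _).trans (by simp)
      · refine ⟨(c.V : Set P), ?_, fun v hv _ => hv⟩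
        have h4 := c.card_V
        obtain ⟨n, hn⟩ := card_pow_two c.hP c.V
        show Nat.card c.V ≤ 2
        rw [hn] at h4 hV ⊢
        rcases n with _ | _ | _ | n
        · norm_num
        · norm_num
        · norm_num at hV
        · rw [pow_succ, pow_succ, pow_succ] at h4
          have := Nat.one_le_two_pow (n := n)
          omega
    obtain ⟨S, hS2, hSfix⟩ := hS
    refine c.bound H 4 4 le_rfl hD ((c.card_map_out H c.R_index hh hhR (kc e0) S
      (fun r hr s hs => hsep r hr.2 s hs.2) ?_).trans ?_)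
    · intro r hr hrC
      refine hSfix _ (c.kc_mem hr.2 he0) ?_
      have h1 : kc e0 (h * r * h⁻¹) = kc e0 r := by
        have h' := c.kc_mul_right hr.2 (c.C_le_R hrC) he0
        rw [mul_inv_cancel_left, c.kc_of_mem_C hrC he0, mul_one] at h'
        exact h'
      have hhe : h⁻¹ * e0 * h ∈ c.E := by have := c.conj_E h⁻¹ he0; rwa [inv_inv] at this
      have h2 : kc (h⁻¹ * e0 * h) r = kc e0 r := by
        rcases hcov _ hhe with h3 | h3
        · have h4 : e0 ∈ c.V := by
            have := c.conj_V h h3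
            simpa [mul_assoc] using this
          rw [c.kc_V hr.2 h3, c.kc_V hr.2 h4]
        · rw [show h⁻¹ * e0 * h = e0 * (e0⁻¹ * (h⁻¹ * e0 * h)) by group, c.kc_mul_left _ he0 h3.1,
            c.kc_V hr.2 h3, mul_one]
      rw [kc_conj, h2] at h1
      exact h1
    · exact Nat.mul_le_mul_right _ (by omega)

end Cfsg.Agent.H81.MacW.Ctx
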